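import Mathlib
import Cfsg.Prelude.Def_FusionSystem
import Cfsg.Agent.Lib.Helper88.FusSat
import Cfsg.Agent.Lib.Helper88.FusAlp
import Cfsg.Agent.Lib.Helper84.PIdxN1
import Cfsg.Agent.Lib.Helper87.FusionHyp

set_option autoImplicit false

namespace Cfsg.Agent.Lib.Helper87

open Cfsg Cfsg.FusionSystem
open Cfsg.Agent.Lib.Helper88 (Mor extFun extFun_mem extFun_apply img mor_of_hom hom_of_mor mor_conj mor_id)

variable {Ω : Type*} [Group Ω] {S : Subgroup Ω}

/-- the conjugate `s P s⁻¹`. -/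
abbrev cj (s : Ω) (P : Subgroup Ω) : Subgroup Ω := P.map (MulAut.conj s).toMonoidHom

theorem mem_cj {s y : Ω} {P : Subgroup Ω} : y ∈ cj s P ↔ s⁻¹ * y * s ∈ P := by
  constructor
  · exact Helper84.PIdxN.conjMap_back y
  · intro h
    have h2 : y = s * (s⁻¹ * y * s) * s⁻¹ := by group
    rw [h2]
    exact Helper84.PIdxN.mem_conjMap h

theorem cj_le {s : Ω} {P : Subgroup Ω} (hs : s ∈ S) (hP : P ≤ S) : cj s P ≤ S := by
  intro y hy
  have h1 := mem_cj.1 hy
  have h2 : y = s * (s⁻¹ * y * s) * s⁻¹ := by group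
  rw [h2]
  exact S.mul_mem (S.mul_mem hs (hP h1)) (S.inv_mem hs)

/-- `f` on `R` is given by an element of `O^p(Aut_F(R))`. -/
def RA (F : FusionSystem S) (p : ℕ) (R : Subgroup Ω) (f : Ω → Ω) : Prop :=
  ∃ α : MulAut R, α ∈ (pResidual p ↥(F.autGroup R)).map (F.autGroup R).subtype ∧
    ∀ x : R, ((α x : R) : Ω) = f x

namespace RA

variable {F : FusionSystem S} {p : ℕ} {R : Subgroup Ω} {f g : Ω → Ω}

theorem congr (h : RA F p R f) (hfg : ∀ x ∈ R, g x = f x) : RA F p R g := by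
  obtain ⟨α, hα, hαf⟩ := h
  exact ⟨α, hα, fun x => (hαf x).trans (hfg x x.2).symm⟩

theorem mem (h : RA F p R f) {x : Ω} (hx : x ∈ R) : f x ∈ R := by
  obtain ⟨α, -, hαf⟩ := h
  rw [← hαf ⟨x, hx⟩]
  exact (α ⟨x, hx⟩).2

theorem mor (h : RA F p R f) (hR : R ≤ S) : Mor F R f := by
  obtain ⟨α, hα, hαf⟩ := h
  have hαA : α ∈ F.autGroup R := by
    obtain ⟨a, -, rfl⟩ := hα
    exact a.2
  have h1 := (Helper88.mem_autGroup_iff F hR α).mp hαA
  exact h1.congr (fun x hx => by rw [extFun_mem _ hx]; exact hαf ⟨x, hx⟩)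

theorem id (F : FusionSystem S) (p : ℕ) (R : Subgroup Ω) : RA F p R (fun x => x) :=
  ⟨1, Subgroup.one_mem _, fun _ => rfl⟩

theorem comp (h₁ : RA F p R f) (h₂ : RA F p R g) : RA F p R (fun x => g (f x)) := by
  obtain ⟨α, hα, hαf⟩ := h₁
  obtain ⟨β, hβ, hβg⟩ := h₂
  refine ⟨β * α, Subgroup.mul_mem _ hβ hα, fun x => ?_⟩
  show ((β (α x) : R) : Ω) = g (f x)
  rw [hβg, hαf]

theorem inv (h : RA F p R f) :
    ∃ g, RA F p R g ∧ (∀ x ∈ R, g (f x) = x) ∧ ∀ x ∈ R, f (g x) = x := by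
  obtain ⟨α, hα, hαf⟩ := h
  refine ⟨extFun (fun x : R => ((α⁻¹ x : R) : Ω)),
    ⟨α⁻¹, Subgroup.inv_mem _ hα,
      fun x => (extFun_apply (fun x : R => ((α⁻¹ x : R) : Ω)) x).symm⟩, ?_, ?_⟩
  · intro x hx
    rw [← hαf ⟨x, hx⟩, extFun_apply]
    simp
  · intro x hx
    rw [extFun_mem _ hx, ← hαf]
    simp

theorem hyp (h : RA F p R f) (hR : R ≤ S) {x : Ω} (hx : x ∈ R) :
    x⁻¹ * f x ∈ F.hyperfocalSubgroup p := by
  obtain ⟨α, hα, hαf⟩ := h
  rw [← hαf ⟨x, hx⟩]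
  exact hyperfocal_gen F p hR hα ⟨x, hx⟩

theorem conj (h : RA F p R f) (hR : R ≤ S) {s : Ω} (hs : s ∈ S) :
    RA F p (cj s R) (fun y => s * f (s⁻¹ * y * s) * s⁻¹) := by
  obtain ⟨α, hα, hαf⟩ := h
  obtain ⟨γ', hγ', hγ'y⟩ := Helper84.PIdxN.conj_residual F p hR hs hα
  refine ⟨γ', hγ', fun y => ?_⟩
  rw [hγ'y y (mem_cj.1 y.2), hαf]

end RA

/-- composites of restrictions of elements of the groups `O^p(Aut_F(R))`. -/
inductive KMor (F : FusionSystem S) (p : ℕ) : Subgroup Ω → (Ω → Ω) → Prop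
  | res {R P : Subgroup Ω} {f g : Ω → Ω} (hRS : R ≤ S) (hf : RA F p R f) (hPR : P ≤ R)
      (hfg : ∀ x ∈ P, g x = f x) : KMor F p P g
  | comp {P : Subgroup Ω} {f g h : Ω → Ω} (hf : KMor F p P f) (hg : KMor F p (img P f) g)
      (hh : ∀ x ∈ P, h x = g (f x)) : KMor F p P h

theorem img_cj {F : FusionSystem S} {P : Subgroup Ω} {f : Ω → Ω} (hf : Mor F P f) (s : Ω) :
    img (cj s P) (fun y => s * f (s⁻¹ * y * s) * s⁻¹) = cj s (img P f) := by
  apply le_antisymm
  · show Subgroup.closure _ ≤ _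
    rw [Subgroup.closure_le]
    rintro _ ⟨y, hy, rfl⟩
    have hy' : s⁻¹ * y * s ∈ P := mem_cj.1 hy
    exact Helper84.PIdxN.mem_conjMap (hf.apply_mem_img hy')
  · intro z hz
    rw [mem_cj] at hz
    obtain ⟨x, hx, hxz⟩ := hf.mem_img.mp hz
    apply Subgroup.subset_closure
    refine ⟨s * x * s⁻¹, Helper84.PIdxN.mem_conjMap hx, ?_⟩
    show s * f (s⁻¹ * (s * x * s⁻¹) * s) * s⁻¹ = z
    have h1 : s⁻¹ * (s * x * s⁻¹) * s = x := by group
    rw [h1, hxz]
    group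

namespace KMor

variable {F : FusionSystem S} {p : ℕ} {P Q : Subgroup Ω} {f g : Ω → Ω}

theorem mor (h : KMor F p P f) : Mor F P f := by
  induction h with
  | res hRS hf hPR hfg => exact ((hf.mor hRS).res hPR).congr (fun x hx => (hfg x hx).symm)
  | comp hf hg hh ihf ihg =>
    exact (ihf.comp ihg (fun x hx => ihf.apply_mem_img hx)).congr (fun x hx => (hh x hx).symm)

theorem congr (h : KMor F p P f) (hfg : ∀ x ∈ P, g x = f x) : KMor F p P g := by
  cases h with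
  | res hRS hf hPR hfg' => exact res hRS hf hPR (fun x hx => (hfg x hx).trans (hfg' x hx))
  | comp hf hg hh => exact comp hf hg (fun x hx => (hfg x hx).trans (hh x hx))

theorem le (h : KMor F p P f) : P ≤ S := h.mor.le

theorem of_ra {R : Subgroup Ω} (hRS : R ≤ S) (hf : RA F p R f) : KMor F p R f :=
  res hRS hf le_rfl (fun _ _ => rfl)

theorem id (F : FusionSystem S) (p : ℕ) (hP : P ≤ S) : KMor F p P (fun x => x) :=
  of_ra hP (RA.id F p P)

theorem restrict (h : KMor F p P f) : ∀ {P' : Subgroup Ω}, P' ≤ P → KMor F p P' f := by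
  induction h with
  | res hRS hf hPR hfg =>
    intro P' hP'
    exact res hRS hf (hP'.trans hPR) (fun x hx => hfg x (hP' hx))
  | comp hf hg hh ihf ihg =>
    intro P' hP'
    exact comp (ihf hP') (ihg (Helper88.img_mono hf.mor hP')) (fun x hx => hh x (hP' hx))

theorem comp' (h₁ : KMor F p P f) (h₂ : KMor F p Q g) (hPQ : ∀ x ∈ P, f x ∈ Q) :
    KMor F p P (fun x => g (f x)) := by
  have hle : img P f ≤ Q := by
    intro y hy
    obtain ⟨x, hx, rfl⟩ := h₁.mor.mem_img.mp hy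
    exact hPQ x hx
  exact comp h₁ (h₂.restrict hle) (fun _ _ => rfl)

theorem hyp (h : KMor F p P f) : ∀ x ∈ P, x⁻¹ * f x ∈ F.hyperfocalSubgroup p := by
  induction h with
  | res hRS hf hPR hfg =>
    intro x hx
    rw [hfg x hx]
    exact hf.hyp hRS (hPR hx)
  | @comp P f g h hf hg hh ihf ihg =>
    intro x hx
    rw [hh x hx]
    have h1 := ihf x hx
    have h2 := ihg (f x) (hf.mor.apply_mem_img hx)
    have h3 : x⁻¹ * g (f x) = (x⁻¹ * f x) * ((f x)⁻¹ * g (f x)) := by group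
    rw [h3]
    exact Subgroup.mul_mem _ h1 h2

theorem conj (h : KMor F p P f) {s : Ω} (hs : s ∈ S) :
    KMor F p (cj s P) (fun y => s * f (s⁻¹ * y * s) * s⁻¹) := by
  induction h with
  | @res R P f g hRS hf hPR hfg =>
    refine res (cj_le hs hRS) (hf.conj hRS hs) (Subgroup.map_mono hPR) ?_
    intro y hy
    show s * g (s⁻¹ * y * s) * s⁻¹ = s * f (s⁻¹ * y * s) * s⁻¹
    rw [hfg _ (mem_cj.1 hy)]
  | @comp P f g h hf hg hh ihf ihg =>
    have e := img_cj hf.mor s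
    rw [← e] at ihg
    refine comp ihf ihg ?_
    intro y hy
    show s * h (s⁻¹ * y * s) * s⁻¹ = s * g (s⁻¹ * (s * f (s⁻¹ * y * s) * s⁻¹) * s) * s⁻¹
    rw [hh _ (mem_cj.1 hy)]
    have h1 : s⁻¹ * (s * f (s⁻¹ * y * s) * s⁻¹) * s = f (s⁻¹ * y * s) := by group
    rw [h1]

theorem inv (h : KMor F p P f) : ∃ g, KMor F p (img P f) g ∧ ∀ x ∈ P, g (f x) = x := by
  induction h with
  | @res R P f g hRS hf hPR hfg =>
    obtain ⟨f', hf', hf'f, -⟩ := hf.inv
    have hmorg : Mor F P g := ((hf.mor hRS).res hPR).congr (fun x hx => (hfg x hx).symm)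
    have hle : img P g ≤ R := by
      intro y hy
      obtain ⟨x, hx, rfl⟩ := hmorg.mem_img.mp hy
      rw [hfg x hx]
      exact hf.mem (hPR hx)
    refine ⟨f', res hRS hf' hle (fun _ _ => rfl), fun x hx => ?_⟩
    rw [hfg x hx]
    exact hf'f x (hPR hx)
  | @comp P f g h hf hg hh ihf ihg =>
    obtain ⟨f', hf', hf'f⟩ := ihf
    obtain ⟨g', hg', hg'g⟩ := ihg
    have hmorf := hf.mor
    have hmorg := hg.mor
    have e1 : img P h = img (img P f) g := by
      rw [Helper88.img_congr hh]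
      exact Helper88.img_comp hmorf hmorg (fun x hx => hmorf.apply_mem_img hx)
    rw [e1]
    refine ⟨fun z => f' (g' z), comp' hg' hf' ?_, ?_⟩
    · intro z hz
      obtain ⟨y, hy, rfl⟩ := hmorg.mem_img.mp hz
      rw [hg'g y hy]
      exact hy
    · intro x hx
      show f' (g' (h x)) = x
      rw [hh x hx, hg'g _ (hmorf.apply_mem_img hx), hf'f x hx]

theorem top [Finite S] (h : KMor F p P f) : P = S → RA F p S f := by
  induction h with
  | @res R P f g hRS hf hPR hfg =>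
    intro hP
    subst hP
    have h1 : R = P := le_antisymm hRS hPR
    subst h1
    exact hf.congr hfg
  | @comp P f g h hf hg hh ihf ihg =>
    intro hP
    subst hP
    have e : img P f = P := hf.mor.img_top
    have h1 := ihf rfl
    have h2 := ihg e
    exact (h1.comp h2).congr hh

end KMor

end Cfsg.Agent.Lib.Helper87
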