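import Mathlib
import Cfsg.Prelude.Def_FusionSystem
import Cfsg.Agent.Lib.Helper84.HypStrongly
import Cfsg.Agent.Lib.Helper87.HPa

set_option autoImplicit false

namespace Cfsg.Agent.Lib.Helper87

open Cfsg Cfsg.FusionSystem
open Cfsg.Agent.Lib.Helper88 (Mor extFun extFun_mem extFun_apply img mor_of_hom hom_of_mor mor_conj mor_id)

variable {Ω : Type*} [Group Ω] {S : Subgroup Ω}

theorem mor_of_dec {F : FusionSystem S} {p : ℕ} {P : Subgroup Ω} {κ : Ω → Ω}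
    (hκ : KMor F p P κ) {s : Ω} (hs : s ∈ S) : Mor F P (fun x => s * κ x * s⁻¹) :=
  hκ.mor.comp (mor_conj F hκ.mor.img_le hs) (fun _ hx => hκ.mor.apply_mem_img hx)

/-- the system over `T` of the maps `c_t ∘ κ` with `t ∈ T` and `κ` a composite of restrictions of
elements of the groups `O^p(Aut_F(R))`. -/
def kSys (F : FusionSystem S) (p : ℕ) (T : Subgroup Ω) (hTS : T ≤ S)
    (hT : F.hyperfocalSubgroup p ≤ T) : FusionSystem T where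
  Hom P := {φ | P ≤ T ∧ ∃ t ∈ T, ∃ κ, KMor F p P κ ∧ ∀ x : P, φ x = t * κ x * t⁻¹}
  le_of_mem := by
    rintro P φ ⟨hP, t, ht, κ, hκ, hφ⟩
    refine ⟨hP, fun x => ?_⟩
    rw [hφ]
    have h1 := hκ.hyp x x.2
    have h2 : κ x = x * ((x : Ω)⁻¹ * κ x) := by group
    rw [h2]
    exact T.mul_mem (T.mul_mem ht (T.mul_mem (hP x.2) (hT h1))) (T.inv_mem ht)
  injective_of_mem := by
    rintro P φ ⟨hP, t, ht, κ, hκ, hφ⟩ x y hxy
    rw [hφ, hφ] at hxy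
    have h1 : κ x = κ y := by
      have h2 := congrArg (fun z => t⁻¹ * z * t) hxy
      simpa [mul_assoc] using h2
    exact Subtype.ext (hκ.mor.inj x.2 y.2 h1)
  conj_mem := by
    intro P g hP hg
    exact ⟨hP, g, hg, fun x => x, KMor.id F p (hP.trans hTS), fun _ => rfl⟩
  comp_mem := by
    rintro P Q φ ψ ⟨hP, t₁, ht₁, κ₁, hκ₁, hφ⟩ ⟨hQ, t₂, ht₂, κ₂, hκ₂, hψ⟩ h
    have ht₁S := hTS ht₁
    have hκ₂' := hκ₂.conj (S.inv_mem ht₁S)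
    refine ⟨hP, t₂ * t₁, T.mul_mem ht₂ ht₁, _, hκ₁.comp' hκ₂' ?_, ?_⟩
    · intro x hx
      rw [mem_cj]
      have h1 := h ⟨x, hx⟩
      rw [hφ] at h1
      have h2 : t₁⁻¹⁻¹ * κ₁ x * t₁⁻¹ = t₁ * κ₁ x * t₁⁻¹ := by rw [inv_inv]
      rw [h2]
      exact h1
    · intro x
      show ψ ⟨φ x, h x⟩ = t₂ * t₁ * (t₁⁻¹ * κ₂ (t₁⁻¹⁻¹ * κ₁ x * t₁⁻¹) * t₁⁻¹⁻¹) * (t₂ * t₁)⁻¹
      rw [hψ]
      show t₂ * κ₂ (φ x) * t₂⁻¹ = _
      rw [hφ, inv_inv]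
      group
  inv_mem := by
    rintro P φ ⟨hP, t, ht, κ, hκ, hφ⟩
    obtain ⟨κ', hκ', hκ'κ⟩ := hκ.inv
    have htS := hTS ht
    have hκ'' := hκ'.conj htS
    have hr : φ.range = cj t (img P κ) := by
      ext y
      rw [mem_cj, hκ.mor.mem_img]
      constructor
      · rintro ⟨x, rfl⟩
        refine ⟨x, x.2, ?_⟩
        rw [hφ]
        group
      · rintro ⟨x, hx, hxy⟩
        refine ⟨⟨x, hx⟩, ?_⟩
        rw [hφ]
        show t * κ x * t⁻¹ = y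
        rw [hxy]
        group
    have hφF : φ ∈ F.Hom P := hom_of_mor (mor_of_dec hκ htS) hφ
    obtain ⟨ψ, hψ, hψφ⟩ := F.inv_mem hφF
    refine ⟨ψ, ⟨?_, t⁻¹, T.inv_mem ht, _, hr ▸ hκ'', ?_⟩, hψφ⟩
    · rintro _ ⟨x, rfl⟩
      rw [hφ]
      have h1 := hκ.hyp x x.2
      have h2 : κ x = x * ((x : Ω)⁻¹ * κ x) := by group
      rw [h2]
      exact T.mul_mem (T.mul_mem ht (T.mul_mem (hP x.2) (hT h1))) (T.inv_mem ht)
    · rintro ⟨_, x, rfl⟩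
      rw [hψφ x]
      show (x : Ω) = t⁻¹ * (t * κ' (t⁻¹ * φ x * t) * t⁻¹) * t⁻¹⁻¹
      rw [hφ]
      have h3 : t⁻¹ * (t * κ x * t⁻¹) * t = κ x := by group
      rw [h3, hκ'κ x x.2]
      group

theorem kSys_hom {F : FusionSystem S} {p : ℕ} {T : Subgroup Ω} (hTS : T ≤ S)
    (hT : F.hyperfocalSubgroup p ≤ T) {P : Subgroup Ω} {φ : P →* Ω} :
    φ ∈ (kSys F p T hTS hT).Hom P ↔
      P ≤ T ∧ ∃ t ∈ T, ∃ κ, KMor F p P κ ∧ ∀ x : P, φ x = t * κ x * t⁻¹ := Iff.rfl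

theorem kSys_sub {F : FusionSystem S} {p : ℕ} {T : Subgroup Ω} (hTS : T ≤ S)
    (hT : F.hyperfocalSubgroup p ≤ T) : (kSys F p T hTS hT).IsSubsystemOf F := by
  rintro P φ ⟨hP, t, ht, κ, hκ, hφ⟩
  exact hom_of_mor (mor_of_dec hκ (hTS ht)) hφ

theorem mor_kSys_iff {F : FusionSystem S} {p : ℕ} {T : Subgroup Ω} (hTS : T ≤ S)
    (hT : F.hyperfocalSubgroup p ≤ T) {P : Subgroup Ω} {f : Ω → Ω} :
    Mor (kSys F p T hTS hT) P f ↔
      P ≤ T ∧ ∃ t ∈ T, ∃ κ, KMor F p P κ ∧ ∀ x ∈ P, f x = t * κ x * t⁻¹ := by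
  constructor
  · rintro ⟨φ, ⟨hP, t, ht, κ, hκ, hφ⟩, hφf⟩
    exact ⟨hP, t, ht, κ, hκ, fun x hx => by rw [← hφf ⟨x, hx⟩]; exact hφ ⟨x, hx⟩⟩
  · rintro ⟨hP, t, ht, κ, hκ, hf⟩
    obtain ⟨φ, hφ, hφf⟩ := mor_of_dec (F := F) hκ (hTS ht)
    exact ⟨φ, ⟨hP, t, ht, κ, hκ, fun x => hφf x⟩, fun x => (hφf x).trans (hf x x.2).symm⟩

/-- **Frattini decomposition**: in a saturated system every map is a composite of restrictions of
elements of the groups `O^p(Aut_F(R))` followed by a conjugation by an element of `S`. -/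
theorem frattini [Finite S] {p : ℕ} [Fact p.Prime] (hS : IsPGroup p S) (F : FusionSystem S)
    (hF : F.IsSaturated p) {P : Subgroup Ω} {f : Ω → Ω} (hf : Mor F P f) :
    ∃ s ∈ S, ∃ κ, KMor F p P κ ∧ ∀ x ∈ P, f x = s * κ x * s⁻¹ := by
  have hle : F ≤ kSys F p S le_rfl (hyperfocal_le F p) := by
    apply Helper84.alperin_ih p hS F hF
    intro P hfn _ α hα
    have hfa := Helper84.fullyAutomized_of_fullyNormalized p hS F hF hfn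
    obtain ⟨c, hc, β, hβ, rfl⟩ := exists_aut_mul_pResidual F hfa hα
    rw [Helper88.mem_autInducedBy_iff] at hc
    obtain ⟨g, hg, hgc⟩ := hc
    apply Subgroup.subset_closure
    refine ⟨hfn.1, g, hg, extFun (fun x : P => ((β x : P) : Ω)),
      KMor.of_ra hfn.1 ⟨β, hβ, fun x => (extFun_apply (fun x : P => ((β x : P) : Ω)) x).symm⟩,
      fun x => ?_⟩
    show (((c * β) x : P) : Ω) = g * extFun _ (x : Ω) * g⁻¹
    rw [extFun_apply]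
    exact hgc (β x)
  obtain ⟨φ, hφ, hφf⟩ := hf
  obtain ⟨-, s, hs, κ, hκ, hφκ⟩ := hle P hφ
  exact ⟨s, hs, κ, hκ, fun x hx => by rw [← hφf ⟨x, hx⟩]; exact hφκ ⟨x, hx⟩⟩

end Cfsg.Agent.Lib.Helper87
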