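import Mathlib
import Cfsg.Prelude.Def_FusionSystem
import Cfsg.Agent.Lib.Helper84.Hyperfocal
import Cfsg.Agent.Lib.Helper87.FusionHypFactor
import Cfsg.Agent.Lib.Helper87.HPa

set_option autoImplicit false

namespace Cfsg.Agent.Lib.Helper87

open Cfsg Cfsg.FusionSystem
open Cfsg.Agent.Lib.Helper88 (Mor extFun extFun_mem extFun_apply img mor_of_hom hom_of_mor mor_conj mor_id)

variable {Ω : Type*} [Group Ω] {S : Subgroup Ω}

theorem mor_forall_sup87 {F : FusionSystem S}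
    {A B : Subgroup Ω} {f : Ω → Ω} (hf : Mor F (A ⊔ B) f) (K : Subgroup Ω)
    (hA : ∀ x ∈ A, f x ∈ K) (hB : ∀ x ∈ B, f x ∈ K) : ∀ x ∈ A ⊔ B, f x ∈ K := by
  intro x hx
  have key : ∀ y ∈ A ⊔ B, y ∈ A ⊔ B ∧ f y ∈ K := by
    intro y hy
    rw [Subgroup.sup_eq_closure] at hy
    induction hy using Subgroup.closure_induction with
    | mem y hy =>
      rcases hy with h | h
      · exact ⟨le_sup_left (α := Subgroup Ω) h, hA y h⟩
      · exact ⟨le_sup_right (α := Subgroup Ω) h, hB y h⟩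
    | one => exact ⟨Subgroup.one_mem _, by rw [hf.map_one]; exact K.one_mem⟩
    | mul a b _ _ ha hb =>
      exact ⟨Subgroup.mul_mem _ ha.1 hb.1, by
        rw [hf.map_mul ha.1 hb.1]; exact K.mul_mem ha.2 hb.2⟩
    | inv a _ ha =>
      exact ⟨Subgroup.inv_mem _ ha.1, by rw [hf.map_inv ha.1]; exact K.inv_mem ha.2⟩
  exact (key x hx).2

/-- the commutator of an automorphism of `P` induced by `S` with an automorphism of order prime
to `p` normalizing a group of automorphisms induced by `S` is induced by an element of the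
hyperfocal subgroup. -/
theorem cc_step [Finite S] {p : ℕ} [Fact p.Prime] (F : FusionSystem S) {P : Subgroup Ω}
    (hrec : F.IsReceptive P) {γ : MulAut P} (hγ : γ ∈ F.autGroup P)
    (hγp : Nat.Coprime (orderOf γ) p)
    (D : Subgroup (MulAut P)) (hD : D ≤ autInducedBy S P) (hDγ : ∀ d ∈ D, γ * d * γ⁻¹ ∈ D)
    {x : MulAut P} (hx : x ∈ D) :
    ∃ h ∈ F.hyperfocalSubgroup p, ∀ z : P, (((x⁻¹ * γ * x * γ⁻¹) z : P) : Ω) = h * z * h⁻¹ := by
  have hp : p.Prime := Fact.out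
  have hPS : P ≤ S := hrec.1
  obtain ⟨N₀, hN₀⟩ : ∃ N₀ : Subgroup Ω, ∀ n, n ∈ N₀ ↔
      (n ∈ S ∧ ∃ d ∈ D, ∀ z : P, ((d z : P) : Ω) = n * z * n⁻¹) := by
    refine ⟨{ carrier := {n | n ∈ S ∧ ∃ d ∈ D, ∀ z : P, ((d z : P) : Ω) = n * z * n⁻¹}
              one_mem' := ⟨S.one_mem, 1, D.one_mem, fun z => by simp⟩
              mul_mem' := ?_
              inv_mem' := ?_ }, fun n => Iff.rfl⟩
    · rintro a b ⟨ha, d, hd, hda⟩ ⟨hb, e, he, heb⟩
      refine ⟨S.mul_mem ha hb, d * e, D.mul_mem hd he, fun z => ?_⟩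
      show ((d (e z) : P) : Ω) = _
      rw [hda, heb]
      group
    · rintro a ⟨ha, d, hd, hda⟩
      refine ⟨S.inv_mem ha, d⁻¹, D.inv_mem hd, fun z => ?_⟩
      have h1 := hda (d⁻¹ z)
      rw [MulAut.apply_inv_self] at h1
      rw [h1]
      group
  have hN₀S : N₀ ≤ S := fun n hn => ((hN₀ n).1 hn).1
  have hN₀norm : ∀ n ∈ N₀, n ∈ Subgroup.normalizer (P : Set Ω) := by
    intro n hn
    obtain ⟨-, d, hd, hdn⟩ := (hN₀ n).1 hn
    rw [Subgroup.mem_normalizer_iff]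
    intro z
    constructor
    · intro hz
      rw [← hdn ⟨z, hz⟩]
      exact (d ⟨z, hz⟩).2
    · intro hz
      have h1 := hdn (d⁻¹ ⟨n * z * n⁻¹, hz⟩)
      rw [MulAut.apply_inv_self] at h1
      have h2 : z = ((d⁻¹ ⟨n * z * n⁻¹, hz⟩ : P) : Ω) := by
        have h3 : n * z * n⁻¹ = n * ((d⁻¹ ⟨n * z * n⁻¹, hz⟩ : P) : Ω) * n⁻¹ := h1
        exact mul_left_cancel (mul_right_cancel h3)
      rw [h2]
      exact (d⁻¹ _).2
  -- the map `γ` and its extension
  have hφ : P.subtype.comp γ.toMonoidHom ∈ F.Hom P := Helper88.subtype_comp_mem F hPS hγ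
  have hr : (P.subtype.comp γ.toMonoidHom).range = P := by
    apply le_antisymm
    · rintro _ ⟨z, rfl⟩
      exact (γ z).2
    · intro z hz
      exact ⟨γ⁻¹ ⟨z, hz⟩, by simp⟩
  obtain ⟨ψ, hψ, hψφ⟩ := hrec.2 P _ hφ hr
  have hPext : P ≤ extender S P (P.subtype.comp γ.toMonoidHom) :=
    Helper84.le_extender hPS _ (fun z => hPS (γ z).2)
  have hN₀ext : N₀ ≤ extender S P (P.subtype.comp γ.toMonoidHom) := by
    intro n hn
    obtain ⟨hnS, d, hd, hdn⟩ := (hN₀ n).1 hn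
    obtain ⟨h, hh, hhd⟩ := (Helper88.mem_autInducedBy_iff S P _).1 (hD (hDγ d hd))
    apply Subgroup.subset_closure
    refine ⟨hnS, hN₀norm n hn, h, hh, fun z hz => ?_⟩
    have e1 : (⟨n * z * n⁻¹, hz⟩ : P) = d z := Subtype.ext (hdn z).symm
    rw [e1]
    have e2 := hhd (γ z)
    have e3 : (γ * d * γ⁻¹) (γ z) = γ (d z) := by simp
    rw [e3] at e2
    exact e2
  obtain ⟨N, hNdef⟩ : ∃ N : Subgroup Ω, N = N₀ ⊔ P := ⟨_, rfl⟩
  have hNle : N ≤ extender S P (P.subtype.comp γ.toMonoidHom) := by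
    rw [hNdef]; exact sup_le hN₀ext hPext
  have hPN : P ≤ N := by rw [hNdef]; exact le_sup_right
  have hN₀N : N₀ ≤ N := by rw [hNdef]; exact le_sup_left
  have hmor : Mor F N (extFun ψ) := (mor_of_hom F hψ).res hNle
  have hNS : N ≤ S := hmor.le
  have hgP : ∀ z : P, extFun ψ (z : Ω) = ((γ z : P) : Ω) := by
    intro z
    rw [extFun_mem ψ (hNle (hPN z.2)), hψφ z z.2 (hNle (hPN z.2))]
    rfl
  have hgN₀ : ∀ n ∈ N₀, extFun ψ n ∈ N₀ := by
    intro n hn
    obtain ⟨hnS, d, hd, hdn⟩ := (hN₀ n).1 hn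
    rw [hN₀]
    refine ⟨hmor.mem_S (hN₀N hn), γ * d * γ⁻¹, hDγ d hd, fun z => ?_⟩
    have e1 : (γ * d * γ⁻¹) z = γ (d (γ⁻¹ z)) := rfl
    rw [e1, ← hgP, hdn, hmor.map_mul (N.mul_mem (hN₀N hn) (hPN (γ⁻¹ z).2)) (N.inv_mem (hN₀N hn)),
      hmor.map_mul (hN₀N hn) (hPN (γ⁻¹ z).2), hmor.map_inv (hN₀N hn), hgP]
    simp
  have hgN : ∀ y ∈ N, extFun ψ y ∈ N := by
    rw [hNdef] at hmor ⊢
    exact mor_forall_sup87 hmor _ (fun n hn => le_sup_left (α := Subgroup Ω) (hgN₀ n hn))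
      (fun z hz => le_sup_right (α := Subgroup Ω) (by rw [hgP ⟨z, hz⟩]; exact (γ ⟨z, hz⟩).2))
  obtain ⟨γh, hγh, hγhx⟩ := hmor.exists_aut hgN
  have hfinN : Finite N := Helper84.finite_of_le hNS
  have hc : ∀ z : P, γh (Subgroup.inclusion hPN z) = Subgroup.inclusion hPN (γ z) := by
    intro z
    apply Subtype.ext
    rw [hγhx]
    exact hgP z
  have hpow := aut_pow_comm (Subgroup.inclusion hPN) hc
  -- the `p'`-part of the extension
  have hpos : orderOf γh ≠ 0 := (orderOf_pos γh).ne'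
  obtain ⟨a, m, hm, hgm⟩ := Nat.exists_eq_pow_mul_and_not_dvd hpos p hp.ne_one
  have hcop : (p ^ a).Coprime (orderOf γ) := Nat.Coprime.pow_left a hγp.symm
  obtain ⟨t, ht⟩ := exists_pow_eq_self_of_coprime hcop
  obtain ⟨γ', hγ'def⟩ : ∃ γ' : MulAut N, γ' = (γh ^ (p ^ a)) ^ t := ⟨_, rfl⟩
  have hγ'ord : Nat.Coprime (orderOf γ') p := by
    have h1 : orderOf (γh ^ (p ^ a)) = m := by
      rw [orderOf_pow, hgm]
      have hg : Nat.gcd (p ^ a * m) (p ^ a) = p ^ a := Nat.gcd_eq_right (dvd_mul_right _ _)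
      rw [hg, Nat.mul_div_cancel_left _ (pow_pos hp.pos a)]
    have h2 : orderOf γ' ∣ m := by rw [hγ'def]; exact h1 ▸ orderOf_pow_dvd t
    exact Nat.Coprime.coprime_dvd_left h2 ((Nat.Prime.coprime_iff_not_dvd hp).2 hm).symm
  have hγ'A : γ' ∈ F.autGroup N := by
    rw [hγ'def]; exact Subgroup.pow_mem _ (Subgroup.pow_mem _ hγh _) _
  have hγ'res : γ' ∈ (pResidual p ↥(F.autGroup N)).map (F.autGroup N).subtype := by
    rw [map_pResidual_eq_closure]
    exact Subgroup.subset_closure ⟨hγ'A, hγ'ord⟩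
  have hγ'P : ∀ z : P, γ' (Subgroup.inclusion hPN z) = Subgroup.inclusion hPN (γ z) := by
    intro z
    rw [hγ'def, ← pow_mul, hpow, pow_mul, ht]
  -- the element of `S` inducing `x`
  obtain ⟨n, hnS, hnx⟩ := (Helper88.mem_autInducedBy_iff S P x).1 (hD hx)
  have hnN₀ : n ∈ N₀ := (hN₀ n).2 ⟨hnS, x, hx, hnx⟩
  have hnN : n ∈ N := hN₀N hnN₀
  refine ⟨n⁻¹ * ((γ' ⟨n, hnN⟩ : N) : Ω), hyperfocal_gen F p hNS hγ'res ⟨n, hnN⟩, fun z => ?_⟩
  have e1 : (x⁻¹ * γ * x * γ⁻¹) z = x⁻¹ (γ (x (γ⁻¹ z))) := rfl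
  have e2 : ∀ v : P, ((x⁻¹ v : P) : Ω) = n⁻¹ * v * n := by
    intro v
    have h1 := hnx (x⁻¹ v)
    rw [MulAut.apply_inv_self] at h1
    rw [h1]
    group
  have e3 : ((γ (x (γ⁻¹ z)) : P) : Ω) =
      ((γ' ⟨n, hnN⟩ : N) : Ω) * z * ((γ' ⟨n, hnN⟩ : N) : Ω)⁻¹ := by
    have h1 : ((γ (x (γ⁻¹ z)) : P) : Ω) =
        ((γ' (Subgroup.inclusion hPN (x (γ⁻¹ z))) : N) : Ω) := by
      rw [hγ'P]; rfl
    have h2 : Subgroup.inclusion hPN (x (γ⁻¹ z)) =
        ⟨n, hnN⟩ * Subgroup.inclusion hPN (γ⁻¹ z) * ⟨n, hnN⟩⁻¹ := by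
      apply Subtype.ext
      exact hnx (γ⁻¹ z)
    rw [h1, h2, map_mul, map_mul, map_inv, hγ'P, MulAut.apply_inv_self]
    rfl
  rw [e1, e2, e3]
  group

/-- **The local hyperfocal subgroup theorem**: an element of `S` inducing on the fully automized
receptive subgroup `P` an element of `O^p(Aut_F(P))` lies in `hyp(F) C_S(P)`. -/
theorem h1 [Finite S] {p : ℕ} [Fact p.Prime] (F : FusionSystem S) {P : Subgroup Ω}
    (hfa : F.IsFullyAutomized p P) (hrec : F.IsReceptive P) {u : Ω} (hu : u ∈ S)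
    (hα : RA F p P (fun x => u * x * u⁻¹)) :
    ∃ h ∈ F.hyperfocalSubgroup p, ∃ c ∈ centralizerIn S P, u = h * c := by
  have hPS : P ≤ S := hrec.1
  have hfinP : Finite P := Helper84.finite_of_le hPS
  have hfinA : Finite (F.autGroup P) := Helper84.finite_autGroup F hPS
  obtain ⟨α, hαres, hαu⟩ := hα
  obtain ⟨-, R, hR⟩ := hfa
  -- the subgroup of the automorphisms induced by the hyperfocal subgroup
  obtain ⟨Hs, hHs⟩ : ∃ Hs : Subgroup (F.autGroup P), ∀ a, a ∈ Hs ↔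
      ∃ h ∈ F.hyperfocalSubgroup p, ∀ z : P, (((a : MulAut P) z : P) : Ω) = h * z * h⁻¹ := by
    refine ⟨{ carrier := {a | ∃ h ∈ F.hyperfocalSubgroup p,
                ∀ z : P, (((a : MulAut P) z : P) : Ω) = h * z * h⁻¹}
              one_mem' := ⟨1, Subgroup.one_mem _, fun z => by simp⟩
              mul_mem' := ?_
              inv_mem' := ?_ }, fun a => Iff.rfl⟩
    · rintro a b ⟨h, hh, hha⟩ ⟨k, hk, hkb⟩
      refine ⟨h * k, Subgroup.mul_mem _ hh hk, fun z => ?_⟩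
      show (((a : MulAut P) ((b : MulAut P) z) : P) : Ω) = _
      rw [hha, hkb]
      group
    · rintro a ⟨h, hh, hha⟩
      refine ⟨h⁻¹, Subgroup.inv_mem _ hh, fun z => ?_⟩
      have h1 := hha ((a : MulAut P)⁻¹ z)
      rw [MulAut.apply_inv_self] at h1
      show ((((a : MulAut P)⁻¹ z : P)) : Ω) = _
      rw [h1]
      group
  have hle : (groupFusionSystem (R : Subgroup (F.autGroup P))).hyperfocalSubgroup p ≤ Hs := by
    unfold hyperfocalSubgroup
    rw [Subgroup.closure_le]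
    rintro _ ⟨Q, β, x, hQR, hβ, rfl⟩
    have key : ∀ β : (groupFusionSystem (R : Subgroup (F.autGroup P))).autGroup Q,
        β ∈ pResidual p ((groupFusionSystem (R : Subgroup (F.autGroup P))).autGroup Q) →
        ∀ x : Q, (x : F.autGroup P)⁻¹ * (((β : MulAut Q) x : Q) : F.autGroup P) ∈ Hs := by
      intro β hβ
      unfold pResidual at hβ
      induction hβ using Subgroup.closure_induction with
      | mem β hβ =>
        intro x
        have hβF := (Helper84.mem_autGroup_iff _ hQR (β : MulAut Q)).1 β.2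
        obtain ⟨-, -, g, hg⟩ := hβF
        have hord : Nat.Coprime (orderOf (β : MulAut Q)) p := by
          rw [Subgroup.orderOf_coe]; exact hβ
        obtain ⟨g', hg'c, hg'⟩ := Helper84.exists_pprime_lift (β : MulAut Q) hord g hg
        rw [hg' x, hHs]
        have hg'ord : Nat.Coprime (orderOf (g' : MulAut P)) p := by
          rw [Subgroup.orderOf_coe]; exact hg'c
        have hDγ : ∀ d ∈ Q.map (F.autGroup P).subtype,
            (g' : MulAut P) * d * (g' : MulAut P)⁻¹ ∈ Q.map (F.autGroup P).subtype := by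
          rintro _ ⟨y, hy, rfl⟩
          refine ⟨((β : MulAut Q) ⟨y, hy⟩ : Q), (((β : MulAut Q) ⟨y, hy⟩ : Q)).2, ?_⟩
          rw [hg' ⟨y, hy⟩]
          rfl
        have hDle : Q.map (F.autGroup P).subtype ≤ autInducedBy S P := by
          rintro _ ⟨y, hy, rfl⟩
          have h1 := hQR hy
          have h2 : y ∈ (R : Subgroup (F.autGroup P)) := h1
          rw [hR, Subgroup.mem_subgroupOf] at h2
          exact h2
        obtain ⟨h, hh, hhz⟩ := cc_step F hrec g'.2 hg'ord (Q.map (F.autGroup P).subtype) hDle hDγ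
          (x := ((x : F.autGroup P) : MulAut P)) ⟨x, x.2, rfl⟩
        exact ⟨h, hh, hhz⟩
      | one => intro x; simp
      | mul β γ _ _ hβ hγ =>
        intro x
        have e : (x : F.autGroup P)⁻¹ *
            ((((β * γ : (groupFusionSystem (R : Subgroup (F.autGroup P))).autGroup Q) :
            MulAut Q) x : Q) : F.autGroup P) =
            ((x : F.autGroup P)⁻¹ * (((γ : MulAut Q) x : Q) : F.autGroup P)) *
              ((((γ : MulAut Q) x : Q) : F.autGroup P)⁻¹ *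
                (((β : MulAut Q) ((γ : MulAut Q) x) : Q) : F.autGroup P)) := by
          show (x : F.autGroup P)⁻¹ * (((β : MulAut Q) ((γ : MulAut Q) x) : Q) : F.autGroup P) = _
          group
        rw [e]
        exact Subgroup.mul_mem _ (hγ x) (hβ _)
      | inv β _ hβ =>
        intro x
        have h1 := hβ ((β : MulAut Q)⁻¹ x)
        rw [MulAut.apply_inv_self] at h1
        have e : (x : F.autGroup P)⁻¹ *
            ((((β⁻¹ : (groupFusionSystem (R : Subgroup (F.autGroup P))).autGroup Q) :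
            MulAut Q) x : Q) : F.autGroup P) =
            ((((β : MulAut Q)⁻¹ x : Q) : F.autGroup P)⁻¹ * (x : F.autGroup P))⁻¹ := by
          show (x : F.autGroup P)⁻¹ * ((((β : MulAut Q)⁻¹ x : Q) : F.autGroup P)) = _
          group
        rw [e]
        exact Subgroup.inv_mem _ h1
    exact key β hβ x
  rw [Helper84.hyperfocal_eq p R] at hle
  -- the automorphism induced by `u`
  have hαA : α ∈ F.autGroup P := by
    obtain ⟨a, -, rfl⟩ := hαres
    exact a.2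
  have hmem : (⟨α, hαA⟩ : F.autGroup P) ∈ (R : Subgroup (F.autGroup P)) ⊓ pResidual p (F.autGroup P) := by
    refine Subgroup.mem_inf.2 ⟨?_, ?_⟩
    · rw [hR, Subgroup.mem_subgroupOf]
      exact (Helper88.mem_autInducedBy_iff S P α).2 ⟨u, hu, hαu⟩
    · obtain ⟨a, ha, hae⟩ := hαres
      have : a = ⟨α, hαA⟩ := Subtype.ext hae
      rw [← this]
      exact ha
  obtain ⟨h, hh, hhz⟩ := (hHs _).1 (hle hmem)
  have hhS : h ∈ S := hyperfocal_le F p hh
  refine ⟨h, hh, h⁻¹ * u, ?_, by group⟩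
  rw [Helper84.mem_centralizerIn]
  refine ⟨S.mul_mem (S.inv_mem hhS) hu, fun z hz => ?_⟩
  have h1 := hhz ⟨z, hz⟩
  have h2 := hαu ⟨z, hz⟩
  have h3 : h * z * h⁻¹ = u * z * u⁻¹ := h1.symm.trans h2
  calc z * (h⁻¹ * u) = h⁻¹ * (h * z * h⁻¹) * u := by group
    _ = h⁻¹ * (u * z * u⁻¹) * u := by rw [h3]
    _ = h⁻¹ * u * z := by group

end Cfsg.Agent.Lib.Helper87
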