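import Mathlib
import Cfsg.Prelude.Def_FusionSystem
import Cfsg.Agent.Lib.Helper84.KNormalizer
import Cfsg.Agent.Lib.Helper84.NormalizerSys
import Cfsg.Agent.Lib.Helper86.FusionAux
import Cfsg.Agent.Lib.Helper87.FusionNormal
import Cfsg.Agent.Lib.Helper87.HPb
import Cfsg.Agent.Lib.Helper87.HPc

set_option autoImplicit false

namespace Cfsg.Agent.Lib.Helper87

open Cfsg Cfsg.FusionSystem
open Cfsg.Agent.Lib.Helper88 (Mor extFun extFun_mem extFun_apply img mor_of_hom hom_of_mor mor_conj mor_id)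

variable {Ω : Type*} [Group Ω] {S : Subgroup Ω}

/-- restriction to an invariant subgroup sends `O^p` of a group of automorphisms into `O^p` of a
group containing the restrictions. -/
theorem pResidual_restrict {R P : Subgroup Ω} (hPR : P ≤ R) {p : ℕ} {A : Subgroup (MulAut R)}
    {A' : Subgroup (MulAut P)}
    (h : ∀ α ∈ A, ∃ α' ∈ A',
      ∀ z : P, α (Subgroup.inclusion hPR z) = Subgroup.inclusion hPR (α' z))
    {α : MulAut R} (hα : α ∈ (pResidual p ↥A).map A.subtype) :
    ∃ α' ∈ (pResidual p ↥A').map A'.subtype,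
      ∀ z : P, α (Subgroup.inclusion hPR z) = Subgroup.inclusion hPR (α' z) := by
  rw [map_pResidual_eq_closure] at hα
  induction hα using Subgroup.closure_induction with
  | mem a ha =>
    obtain ⟨a', ha', hc⟩ := h a ha.1
    refine ⟨a', ?_, hc⟩
    rw [map_pResidual_eq_closure]
    apply Subgroup.subset_closure
    refine ⟨ha', ?_⟩
    have hpow := aut_pow_comm (Subgroup.inclusion hPR) hc
    have h1 : a' ^ orderOf a = 1 := by
      refine MulEquiv.ext (fun z => ?_)
      have h2 := hpow (orderOf a) z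
      rw [pow_orderOf_eq_one] at h2
      exact Subgroup.inclusion_injective hPR h2.symm
    exact Nat.Coprime.coprime_dvd_left (orderOf_dvd_of_pow_eq_one h1) ha.2
  | one => exact ⟨1, Subgroup.one_mem _, fun z => rfl⟩
  | mul a b _ _ iha ihb =>
    obtain ⟨a', ha', hca⟩ := iha
    obtain ⟨b', hb', hcb⟩ := ihb
    refine ⟨a' * b', Subgroup.mul_mem _ ha' hb', fun z => ?_⟩
    show a (b (Subgroup.inclusion hPR z)) = Subgroup.inclusion hPR (a' (b' z))
    rw [hcb, hca]
  | inv a _ iha =>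
    obtain ⟨a', ha', hca⟩ := iha
    refine ⟨a'⁻¹, Subgroup.inv_mem _ ha', fun z => ?_⟩
    have h1 := hca (a'⁻¹ z)
    rw [MulAut.apply_inv_self] at h1
    rw [← h1, MulAut.inv_apply_self]

section norm

variable [Finite S] {F : FusionSystem S} {p : ℕ} {P : Subgroup Ω}
  {E : FusionSystem (normalizerIn S P)}

theorem norm_autGroup_le (hPS : P ≤ S) (hE : F.IsNormalizerSystem P E) {R : Subgroup Ω}
    (hR : R ≤ normalizerIn S P) : E.autGroup R ≤ F.autGroup R := by
  intro α hα
  have h1 := (Helper88.mem_autGroup_iff E hR α).1 hα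
  have h2 := ((Helper84.mor_normalizerSystem_iff F hPS E hE R _).1 h1).1
  exact (Helper88.mem_autGroup_iff F (hR.trans inf_le_left) α).2 h2

theorem kmor_of_norm (hPS : P ≤ S) (hE : F.IsNormalizerSystem P E) {Q : Subgroup Ω} {κ : Ω → Ω}
    (hκ : KMor E p Q κ) : KMor F p Q κ := by
  induction hκ with
  | @res R Q f g hRS hf hQR hfg =>
    obtain ⟨α, hα, hαf⟩ := hf
    exact KMor.res (hRS.trans inf_le_left)
      ⟨α, Helper86.pResidual_map_le p (norm_autGroup_le hPS hE hRS) hα, hαf⟩ hQR hfg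
  | comp hf hg hh ihf ihg => exact KMor.comp ihf ihg hh

theorem ra_of_norm (hPS : P ≤ S) (hE : F.IsNormalizerSystem P E) {Q : Subgroup Ω} {κ : Ω → Ω}
    (hκ : KMor E p Q κ) : P ≤ Q → RA F p P κ := by
  induction hκ with
  | @res R Q f g hRS hf hQR hfg =>
    intro hPQ
    obtain ⟨α, hα, hαf⟩ := hf
    have hPR : P ≤ R := hPQ.trans hQR
    have hres : ∀ α ∈ E.autGroup R, ∃ α' ∈ F.autGroup P,
        ∀ z : P, α (Subgroup.inclusion hPR z) = Subgroup.inclusion hPR (α' z) := by
      intro α hα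
      have h1 := (Helper88.mem_autGroup_iff E hRS α).1 hα
      obtain ⟨h2, -, -, f', hf', hf'f, hf'P⟩ :=
        (Helper84.mor_normalizerSystem_iff F hPS E hE R _).1 h1
      have h3 : Mor F P (extFun (fun x : R => ((α x : R) : Ω))) := h2.res hPR
      have h4 : ∀ x ∈ P, extFun (fun x : R => ((α x : R) : Ω)) x ∈ P := by
        intro x hx
        rw [← hf'f x (hPR hx)]
        exact hf'P x hx
      obtain ⟨α', hα', hα'x⟩ := h3.exists_aut h4
      refine ⟨α', hα', fun z => ?_⟩
      apply Subtype.ext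
      show ((α (Subgroup.inclusion hPR z) : R) : Ω) = ((α' z : P) : Ω)
      rw [hα'x, extFun_mem _ (hPR z.2)]
      rfl
    obtain ⟨α', hα', hc⟩ := pResidual_restrict hPR hres hα
    refine ⟨α', hα', fun x => ?_⟩
    rw [hfg x (hPQ x.2)]
    exact (congrArg Subtype.val (hc x)).symm.trans (hαf (Subgroup.inclusion hPR x))
  | @comp Q f g h hf hg hh ihf ihg =>
    intro hPQ
    have h1 := ihf hPQ
    have hle : P ≤ img Q f := by
      intro z hz
      obtain ⟨g₀, hg₀, -, hfg₀⟩ := h1.inv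
      rw [← hfg₀ z hz]
      exact hf.mor.apply_mem_img (hPQ (hg₀.mem hz))
    exact (h1.comp (ihg hle)).congr (fun x hx => hh x (hPQ hx))

end norm

/-- a map of the system between subgroups of `N_S(P)` containing `P`, for `P` fully normalized
with `C_S(P) ≤ M`, whose restriction to `P` lies in `O^p(Aut_F(P))`, is a composite of
restrictions followed by a conjugation by an element of `M`. -/
theorem compat3 [Finite S] {p : ℕ} [Fact p.Prime] (hS : IsPGroup p S) (F : FusionSystem S)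
    (hF : F.IsSaturated p) {P : Subgroup Ω} (hfn : F.IsFullyNormalized P) {M : Subgroup Ω}
    (hhyp : F.hyperfocalSubgroup p ≤ M) (hcent : centralizerIn S P ≤ M)
    {Q' : Subgroup Ω} (hPQ : P ≤ Q') (hQN : Q' ≤ normalizerIn S P) {γ : Ω → Ω}
    (hγ : Mor F Q' γ) (hγN : ∀ x ∈ Q', γ x ∈ normalizerIn S P) (hγP : RA F p P γ) :
    ∃ s ∈ M, s ∈ S ∧ ∃ κ, KMor F p Q' κ ∧ ∀ x ∈ Q', γ x = s * κ x * s⁻¹ := by
  have hPS : P ≤ S := hfn.1
  have hfa := Helper84.fullyAutomized_of_fullyNormalized p hS F hF hfn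
  have hrec := Helper84.receptive_of_fullyCentralized p hS F hF
    (Helper84.fullyCentralized_of_fullyNormalized p hS F hF hfn)
  obtain ⟨E, hE⟩ : ∃ E : FusionSystem (normalizerIn S P), F.IsNormalizerSystem P E :=
    ⟨_, isNormalizerSystem_normSystem F P hPS⟩
  have hEsat : E.IsSaturated p := Helper84.normalizerSystem_saturated p hS F hF P hfn E hE
  haveI hfinN : Finite (normalizerIn S P) := Helper84.finite_of_le (Helper84.normalizerIn_le S P)
  have hSN : IsPGroup p (normalizerIn S P) := hS.to_le inf_le_left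
  have hγE : Mor E Q' γ := by
    rw [Helper84.mor_normalizerSystem_iff F hPS E hE]
    refine ⟨hγ, hQN, hγN, γ, ?_, fun _ _ => rfl, fun x hx => hγP.mem hx⟩
    rw [sup_eq_left.2 hPQ]
    exact hγ
  obtain ⟨s, hs, κ, hκ, hγκ⟩ := frattini hSN E hEsat hγE
  have hκP : RA F p P κ := ra_of_norm hPS hE hκ hPQ
  obtain ⟨g₀, hg₀, hg₀κ, hκg₀⟩ := hκP.inv
  have hcs : RA F p P (fun x => s * x * s⁻¹) := by
    refine (hg₀.comp hγP).congr (fun x hx => ?_)
    rw [hγκ _ (hPQ (hg₀.mem hx)), hκg₀ x hx]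
  have hsS : s ∈ S := Helper84.normalizerIn_le S P hs
  obtain ⟨h, hh, c, hc, hsc⟩ := h1 F hfa hrec hsS hcs
  refine ⟨s, ?_, hsS, κ, kmor_of_norm hPS hE hκ, hγκ⟩
  rw [hsc]
  exact M.mul_mem (hhyp hh) (hcent hc)

end Cfsg.Agent.Lib.Helper87
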