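import Mathlib
import Cfsg.Prelude.Def_FusionSystem
import Cfsg.Agent.Lib.Helper84.FusionAlperin
import Cfsg.Agent.Lib.Helper87.HPd

set_option autoImplicit false

namespace Cfsg.Agent.Lib.Helper87

open Cfsg Cfsg.FusionSystem
open Cfsg.Agent.Lib.Helper88 (Mor extFun extFun_mem extFun_apply img mor_of_hom hom_of_mor mor_conj mor_id)

variable {Ω : Type*} [Group Ω] {S : Subgroup Ω}

theorem mor_map_normalizer [Finite S] {F : FusionSystem S} {N₁ Q₁ : Subgroup Ω} {χ : Ω → Ω}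
    (hχ : Mor F N₁ χ) (hQN : Q₁ ≤ N₁) (hN₁ : N₁ ≤ normalizerIn S Q₁) :
    ∀ y ∈ N₁, χ y ∈ normalizerIn S (img Q₁ χ) := by
  intro y hy
  have hQχ : Mor F Q₁ χ := hχ.res hQN
  haveI : Finite (img Q₁ χ) := Helper84.finite_of_le hQχ.img_le
  refine Subgroup.mem_inf.2 ⟨hχ.mem_S hy, Helper88.mem_normalizer_fin ?_⟩
  intro z hz
  obtain ⟨q, hq, rfl⟩ := hQχ.mem_img.mp hz
  have hyq : y * q * y⁻¹ ∈ Q₁ :=
    ((Subgroup.mem_normalizer_iff.1 (Subgroup.mem_inf.1 (hN₁ hy)).2) q).1 hq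
  have e : χ y * χ q * (χ y)⁻¹ = χ (y * q * y⁻¹) := by
    rw [hχ.map_mul (N₁.mul_mem hy (hQN hq)) (N₁.inv_mem hy), hχ.map_mul hy (hQN hq),
      hχ.map_inv hy]
  rw [e]
  exact hQχ.apply_mem_img hyq

theorem beta_dec [Finite S] {p : ℕ} [Fact p.Prime] (F : FusionSystem S) {P : Subgroup Ω}
    (hfa : F.IsFullyAutomized p P) {Q' : Subgroup Ω} {χ' ξ : Ω → Ω} (hχ' : Mor F Q' χ')
    (hχ'img : img Q' χ' = P) (hξ : Mor F Q' ξ) (hξimg : img Q' ξ = P) :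
    ∃ w ∈ normalizerIn S P, ∃ a₀, RA F p P a₀ ∧ ∀ y ∈ Q', ξ y = w * a₀ (χ' y) * w⁻¹ := by
  have hPS : P ≤ S := hfa.1
  haveI : Finite P := Helper84.finite_of_le hPS
  obtain ⟨k', hk', -, hk'χ, hk'2⟩ := hχ'.exists_inv_img hχ'img
  have hβ : Mor F P (fun z => ξ (k' z)) := hk'.comp hξ (fun z hz => (hk'2 z hz).1)
  have hβP : ∀ z ∈ P, ξ (k' z) ∈ P := by
    intro z hz
    rw [← hξimg]
    exact hξ.apply_mem_img (hk'2 z hz).1
  obtain ⟨βa, hβa, hβax⟩ := hβ.exists_aut hβP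
  obtain ⟨c, hc, b, hb, hcb⟩ := exists_aut_mul_pResidual F hfa hβa
  obtain ⟨w, hw, hwc⟩ := (Helper88.mem_autInducedBy_iff S P c).1 hc
  have hwN : w ∈ normalizerIn S P := by
    refine Subgroup.mem_inf.2 ⟨hw, Helper88.mem_normalizer_fin ?_⟩
    intro z hz
    rw [← hwc ⟨z, hz⟩]
    exact (c ⟨z, hz⟩).2
  refine ⟨w, hwN, extFun (fun z : P => ((b z : P) : Ω)),
    ⟨b, hb, fun z => (extFun_apply (fun z : P => ((b z : P) : Ω)) z).symm⟩, ?_⟩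
  intro y hy
  have hyP : χ' y ∈ P := by rw [← hχ'img]; exact hχ'.apply_mem_img hy
  have h1 : ((βa ⟨χ' y, hyP⟩ : P) : Ω) = ξ (k' (χ' y)) := hβax ⟨χ' y, hyP⟩
  rw [hk'χ y hy] at h1
  rw [← h1, hcb, extFun_mem _ hyP]
  show ((c (b ⟨χ' y, hyP⟩) : P) : Ω) = _
  rw [hwc]

theorem ra_transport [Finite S] {p : ℕ} (F : FusionSystem S) {P Q' : Subgroup Ω} {χ f : Ω → Ω}
    (hχ : Mor F Q' χ) (himg : img Q' χ = P) (hf : RA F p Q' f) :
    ∃ a₁, RA F p P a₁ ∧ ∀ x ∈ Q', a₁ (χ x) = χ (f x) := by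
  have hQS : Q' ≤ S := hχ.le
  have hPS : P ≤ S := by rw [← himg]; exact hχ.img_le
  haveI : Finite P := Helper84.finite_of_le hPS
  obtain ⟨k', hk', -, hk'χ, hk'2⟩ := hχ.exists_inv_img himg
  obtain ⟨φ, hφ, hφχ⟩ := hχ
  have hχ : Mor F Q' χ := ⟨φ, hφ, hφχ⟩
  have hφP : ∀ x : Q', φ x ∈ P := fun x => by
    rw [hφχ, ← himg]; exact hχ.apply_mem_img x.2
  obtain ⟨e, he⟩ : ∃ e : Q' →* P, ∀ x : Q', ((e x : P) : Ω) = χ x :=
    ⟨φ.codRestrict P hφP, fun x => hφχ x⟩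
  have hsurj : Function.Surjective e := by
    intro z
    have hz : (z : Ω) ∈ img Q' χ := by rw [himg]; exact z.2
    obtain ⟨x, hx, hxz⟩ := hχ.mem_img.mp hz
    exact ⟨⟨x, hx⟩, Subtype.ext ((he ⟨x, hx⟩).trans hxz)⟩
  have hlift : ∀ α ∈ F.autGroup Q', ∃ α' ∈ F.autGroup P, ∀ x, α' (e x) = e (α x) := by
    intro α hα
    have h1 := (Helper88.mem_autGroup_iff F hQS α).1 hα
    have h2 : Mor F P (fun z => χ (extFun (fun x : Q' => ((α x : Q') : Ω)) (k' z))) :=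
      (hk'.comp h1 (fun z hz => (hk'2 z hz).1)).comp hχ (fun z hz => by
        show extFun (fun x : Q' => ((α x : Q') : Ω)) (k' z) ∈ Q'
        rw [extFun_mem _ (hk'2 z hz).1]
        exact (α _).2)
    have h3 : ∀ z ∈ P, χ (extFun (fun x : Q' => ((α x : Q') : Ω)) (k' z)) ∈ P := by
      intro z hz
      rw [← himg, extFun_mem _ (hk'2 z hz).1]
      exact hχ.apply_mem_img (α _).2
    obtain ⟨α', hα', hα'x⟩ := h2.exists_aut h3
    refine ⟨α', hα', fun x => ?_⟩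
    apply Subtype.ext
    rw [hα'x, he, he, hk'χ x x.2, extFun_apply]
  obtain ⟨α, hα, hαf⟩ := hf
  obtain ⟨α', hα', hc⟩ := pResidual_lift_forward p e hsurj hlift hα
  refine ⟨extFun (fun z : P => ((α' z : P) : Ω)),
    ⟨α', hα', fun z => (extFun_apply (fun z : P => ((α' z : P) : Ω)) z).symm⟩, ?_⟩
  intro x hx
  have h1 := congrArg Subtype.val (hc ⟨x, hx⟩)
  rw [he] at h1
  have h2 : χ x = ((e ⟨x, hx⟩ : P) : Ω) := (he ⟨x, hx⟩).symm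
  rw [h2, extFun_apply, h1, hαf]

theorem cj_eq_self {w : Ω} {P : Subgroup Ω} (hw : w ∈ Subgroup.normalizer (P : Set Ω)) :
    cj w P = P := by
  ext y
  rw [mem_cj]
  have h := (Subgroup.mem_normalizer_iff.1 hw) (w⁻¹ * y * w)
  rw [h]
  have e : w * (w⁻¹ * y * w) * w⁻¹ = y := by group
  rw [e]

theorem ra_conj_self (F : FusionSystem S) {p : ℕ} {P : Subgroup Ω} (hPS : P ≤ S) {a : Ω → Ω}
    (ha : RA F p P a) {w : Ω} (hw : w ∈ normalizerIn S P) :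
    RA F p P (fun z => w * a (w⁻¹ * z * w) * w⁻¹) := by
  have h := ha.conj hPS (Subgroup.mem_inf.1 hw).1
  rw [cj_eq_self (Subgroup.mem_inf.1 hw).2] at h
  exact h

theorem img_conj (u : Ω) (P : Subgroup Ω) : img P (fun x => u * x * u⁻¹) = cj u P := by
  apply le_antisymm
  · show Subgroup.closure _ ≤ _
    rw [Subgroup.closure_le]
    rintro _ ⟨x, hx, rfl⟩
    exact Helper84.PIdxN.mem_conjMap hx
  · rintro _ ⟨x, hx, rfl⟩
    exact Subgroup.subset_closure ⟨x, hx, rfl⟩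

theorem conj_mem_normalizerIn {u y : Ω} {Q : Subgroup Ω} (hu : u ∈ S)
    (hy : y ∈ normalizerIn S Q) : u * y * u⁻¹ ∈ normalizerIn S (cj u Q) := by
  obtain ⟨hyS, hyN⟩ := Subgroup.mem_inf.1 hy
  refine Subgroup.mem_inf.2 ⟨S.mul_mem (S.mul_mem hu hyS) (S.inv_mem hu), ?_⟩
  rw [Subgroup.mem_normalizer_iff]
  intro z
  rw [mem_cj, mem_cj, (Subgroup.mem_normalizer_iff.1 hyN) (u⁻¹ * z * u)]
  have e : u⁻¹ * (u * y * u⁻¹ * z * (u * y * u⁻¹)⁻¹) * u = y * (u⁻¹ * z * u) * y⁻¹ := by group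
  rw [e]

/-- `Q` is of type I with respect to `M`: two composites of restrictions with source `Q` that
differ by the conjugation by `u ∈ S` force `u ∈ M`. -/
def TypeI (F : FusionSystem S) (p : ℕ) (M Q : Subgroup Ω) : Prop :=
  ∀ (κ κ' : Ω → Ω) (u : Ω), KMor F p Q κ → KMor F p Q κ' → u ∈ S →
    (∀ x ∈ Q, κ' x = u * κ x * u⁻¹) → u ∈ M

/-- all conjugates of `Q` in the system have their centralizer in `S` inside `M`. -/
def CentCond (F : FusionSystem S) (M Q : Subgroup Ω) : Prop :=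
  ∀ Q' : Subgroup Ω, F.IsConj Q Q' → centralizerIn S Q' ≤ M

theorem compat2 [Finite S] {p : ℕ} [Fact p.Prime] (hS : IsPGroup p S) (F : FusionSystem S)
    (hF : F.IsSaturated p) {P : Subgroup Ω} (hfn : F.IsFullyNormalized P) {M : Subgroup Ω}
    (hMn : ∀ s ∈ S, ∀ m ∈ M, s * m * s⁻¹ ∈ M)
    (hhyp : F.hyperfocalSubgroup p ≤ M) (hcent : centralizerIn S P ≤ M)
    {N₁ Q₁ : Subgroup Ω} (hI : TypeI F p M N₁) (hQN : Q₁ ≤ N₁) (hN₁ : N₁ ≤ normalizerIn S Q₁)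
    {ξ χ : Ω → Ω} (hξ : Mor F N₁ ξ) (hχ : Mor F N₁ χ) (hξQ : img Q₁ ξ = P) (hχQ : img Q₁ χ = P)
    {sξ sχ : Ω} (hsξ : sξ ∈ S) (hsχ : sχ ∈ S) {κξ κχ : Ω → Ω} (hκξ : KMor F p N₁ κξ)
    (hκχ : KMor F p N₁ κχ) (hξd : ∀ y ∈ N₁, ξ y = sξ * κξ y * sξ⁻¹)
    (hχd : ∀ y ∈ N₁, χ y = sχ * κχ y * sχ⁻¹)
    {w : Ω} (hw : w ∈ normalizerIn S P) {a₀ : Ω → Ω} (ha₀ : RA F p P a₀)
    (hrel : ∀ y ∈ Q₁, ξ y = w * a₀ (χ y) * w⁻¹) : sξ⁻¹ * w * sχ ∈ M := by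
  have hPS : P ≤ S := hfn.1
  have hwS : w ∈ S := Helper84.normalizerIn_le S P hw
  have hχN := mor_map_normalizer hχ hQN hN₁
  have hξN := mor_map_normalizer hξ hQN hN₁
  rw [hχQ] at hχN
  rw [hξQ] at hξN
  obtain ⟨χ', hχ', -, hχ'χ, hχ'2⟩ := hχ.exists_inv_img rfl
  have hγ0 : Mor F (img N₁ χ) (fun z => ξ (χ' z)) := hχ'.comp hξ (fun z hz => (hχ'2 z hz).1)
  have hγ : Mor F (img N₁ χ) (fun z => w⁻¹ * ξ (χ' z) * w) := by
    refine (hγ0.comp (mor_conj F hγ0.img_le (S.inv_mem hwS))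
      (fun z hz => hγ0.apply_mem_img hz)).congr ?_
    intro z _
    show w⁻¹ * ξ (χ' z) * w⁻¹⁻¹ = w⁻¹ * ξ (χ' z) * w
    rw [inv_inv]
  have hPQ' : P ≤ img N₁ χ := by rw [← hχQ]; exact Helper88.img_mono hχ hQN
  have hQ'N : img N₁ χ ≤ normalizerIn S P := by
    intro z hz
    obtain ⟨y, hy, rfl⟩ := hχ.mem_img.mp hz
    exact hχN y hy
  have hγN : ∀ z ∈ img N₁ χ, w⁻¹ * ξ (χ' z) * w ∈ normalizerIn S P := by
    intro z hz
    exact Subgroup.mul_mem _ (Subgroup.mul_mem _ (Subgroup.inv_mem _ hw)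
      (hξN _ (hχ'2 z hz).1)) hw
  have hγP : RA F p P (fun z => w⁻¹ * ξ (χ' z) * w) := by
    refine ha₀.congr (fun z hz => ?_)
    rw [← hχQ] at hz
    obtain ⟨q, hq, rfl⟩ := (hχ.res hQN).mem_img.mp hz
    show w⁻¹ * ξ (χ' (χ q)) * w = a₀ (χ q)
    rw [hχ'χ q (hQN hq), hrel q hq]
    group
  obtain ⟨s', hs'M, hs'S, κ', hκ', hγκ'⟩ :=
    compat3 hS F hF hfn hhyp hcent hPQ' hQ'N hγ hγN hγP
  have hκ'' := hκ'.conj (S.inv_mem hsχ)
  have hmaps : ∀ y ∈ N₁, κχ y ∈ cj sχ⁻¹ (img N₁ χ) := by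
    intro y hy
    rw [mem_cj, inv_inv, ← hχd y hy]
    exact hχ.apply_mem_img hy
  have hκ''' := hκχ.comp' hκ'' hmaps
  have hu : sξ⁻¹ * w * s' * sχ ∈ M := by
    refine hI _ κξ _ hκ''' hκξ
      (S.mul_mem (S.mul_mem (S.mul_mem (S.inv_mem hsξ) hwS) hs'S) hsχ) ?_
    intro y hy
    show κξ y = sξ⁻¹ * w * s' * sχ * (sχ⁻¹ * κ' (sχ⁻¹⁻¹ * κχ y * sχ⁻¹) * sχ⁻¹⁻¹) *
      (sξ⁻¹ * w * s' * sχ)⁻¹
    have e1 : sχ⁻¹⁻¹ * κχ y * sχ⁻¹ = χ y := by rw [inv_inv, hχd y hy]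
    have e2 : w⁻¹ * ξ (χ' (χ y)) * w = s' * κ' (χ y) * s'⁻¹ :=
      hγκ' (χ y) (hχ.apply_mem_img hy)
    rw [hχ'χ y hy, hξd y hy] at e2
    rw [e1]
    have e3 : κ' (χ y) = s'⁻¹ * (w⁻¹ * (sξ * κξ y * sξ⁻¹) * w) * s' := by rw [e2]; group
    rw [e3, inv_inv]
    group
  have h2 : sχ⁻¹ * s'⁻¹ * sχ⁻¹⁻¹ ∈ M := hMn _ (S.inv_mem hsχ) _ (M.inv_mem hs'M)
  have e : sξ⁻¹ * w * sχ = (sξ⁻¹ * w * s' * sχ) * (sχ⁻¹ * s'⁻¹ * sχ⁻¹⁻¹) := by group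
  rw [e]
  exact M.mul_mem hu h2

/-- admissible data at a conjugate `Q'` of `P`: a map of the system on `N_S(Q')` carrying `Q'`
onto `P`, with a Frattini decomposition. -/
def Adm (F : FusionSystem S) (p : ℕ) (P Q' : Subgroup Ω) (χ : Ω → Ω) (s : Ω) : Prop :=
  Mor F (normalizerIn S Q') χ ∧ img Q' χ = P ∧ s ∈ S ∧
    ∃ κ, KMor F p (normalizerIn S Q') κ ∧ ∀ y ∈ normalizerIn S Q', χ y = s * κ y * s⁻¹

theorem exists_adm [Finite S] {p : ℕ} [Fact p.Prime] (hS : IsPGroup p S) (F : FusionSystem S)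
    (hF : F.IsSaturated p) {P : Subgroup Ω} (hfa : F.IsFullyAutomized p P)
    (hrec : F.IsReceptive P) {Q' : Subgroup Ω} (hconj : F.IsConj Q' P) :
    ∃ χ s, Adm F p P Q' χ s := by
  obtain ⟨k, hk, hkimg⟩ := (Helper88.isConj_iff F).mp hconj
  obtain ⟨χ, hχ, hχimg⟩ := Helper88.lemma26a hS hfa hrec hk hkimg
  obtain ⟨s, hs, κ, hκ, hd⟩ := frattini hS F hF hχ
  exact ⟨χ, s, hχ, hχimg, hs, κ, hκ, hd⟩

theorem kl [Finite S] {p : ℕ} [Fact p.Prime] (hS : IsPGroup p S) (F : FusionSystem S)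
    (hF : F.IsSaturated p) {P : Subgroup Ω} (hfn : F.IsFullyNormalized P) {M : Subgroup Ω}
    (hMn : ∀ s ∈ S, ∀ m ∈ M, s * m * s⁻¹ ∈ M)
    (hhyp : F.hyperfocalSubgroup p ≤ M) (hcent : centralizerIn S P ≤ M) (hne : P ≠ S)
    (hI : ∀ N₁ : Subgroup Ω, N₁ ≤ S → Nat.card P < Nat.card N₁ →
      (∃ Q₁, Q₁ ≤ N₁ ∧ F.IsConj Q₁ P) → TypeI F p M N₁)
    {Q' : Subgroup Ω} {κ : Ω → Ω} (hκ : KMor F p Q' κ) :
    F.IsConj Q' P → ∀ (χ' : Ω → Ω) (s' : Ω) (χ'' : Ω → Ω) (s'' : Ω), Adm F p P Q' χ' s' →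
      Adm F p P (img Q' κ) χ'' s'' →
      ∃ v ∈ normalizerIn S P, ∃ a, RA F p P a ∧ (∀ x ∈ Q', χ'' (κ x) = v * a (χ' x) * v⁻¹) ∧
        s''⁻¹ * v * s' ∈ M := by
  have hPS : P ≤ S := hfn.1
  have hfa := Helper84.fullyAutomized_of_fullyNormalized p hS F hF hfn
  have hrec := Helper84.receptive_of_fullyCentralized p hS F hF
    (Helper84.fullyCentralized_of_fullyNormalized p hS F hF hfn)
  induction hκ with
  | @res R Q' f g hRS hf hQR hfg =>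
    intro hconj χ' s' χ'' s'' ⟨hχ', hχ'img, hs', κ₁, hκ₁, hd'⟩ hadm''
    have himg : img Q' g = img Q' f := Helper88.img_congr hfg
    rw [himg] at hadm''
    obtain ⟨hχ'', hχ''img, hs'', κ₂, hκ₂, hd''⟩ := hadm''
    have hQ'S : Q' ≤ S := hQR.trans hRS
    have hmorf : Mor F R f := hf.mor hRS
    have hmorfQ : Mor F Q' f := hmorf.res hQR
    have hQ'N : Q' ≤ normalizerIn S Q' := Helper84.le_normalizerIn hQ'S
    have hcardQ : Nat.card Q' = Nat.card P := by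
      obtain ⟨k, hk, hkimg⟩ := (Helper88.isConj_iff F).mp hconj
      rw [← hkimg, hk.card_img]
    have hχ'Q : Mor F Q' χ' := hχ'.res hQ'N
    by_cases hRQ : R = Q'
    · have hf' : RA F p Q' f := hRQ ▸ hf
      have e : img Q' f = Q' := hmorfQ.img_eq_self (fun x hx => hf'.mem hx)
      rw [e] at hχ'' hχ''img hκ₂ hd''
      obtain ⟨w, hw, a₀, ha₀, hrel⟩ := beta_dec F hfa hχ'Q hχ'img (hχ''.res hQ'N) hχ''img
      have hneQ : Q' ≠ S := by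
        intro h
        apply hne
        rw [h] at hcardQ
        exact Subgroup.eq_of_le_of_card_ge hPS (le_of_eq hcardQ)
      obtain ⟨g₁, hg₁, hg₁R⟩ := Helper84.exists_mem_normalizerIn_not_mem hS hQ'S hneQ
      haveI : Finite (normalizerIn S Q') :=
        Helper84.finite_of_le (Helper84.normalizerIn_le S Q')
      have hlt : Nat.card P < Nat.card (normalizerIn S Q') := by
        rw [← hcardQ]
        exact Helper84.card_lt_of_le_of_not_mem hQ'N hg₁ hg₁R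
      have hIN := hI _ (Helper84.normalizerIn_le S Q') hlt ⟨Q', hQ'N, hconj⟩
      have hm := compat2 hS F hF hfn hMn hhyp hcent hIN hQ'N le_rfl hχ'' hχ' hχ''img hχ'img
        hs'' hs' hκ₂ hκ₁ hd'' hd' hw ha₀ hrel
      obtain ⟨a₁, ha₁, ha₁χ⟩ := ra_transport F hχ'Q hχ'img hf'
      refine ⟨w, hw, fun z => a₀ (a₁ z), ha₁.comp ha₀, fun x hx => ?_, hm⟩
      rw [hfg x hx, hrel (f x) (hf'.mem hx)]
      show w * a₀ (χ' (f x)) * w⁻¹ = w * a₀ (a₁ (χ' x)) * w⁻¹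
      rw [ha₁χ x hx]
    · have hfinR : Finite R := Helper84.finite_of_le hRS
      have hRp : IsPGroup p R := hS.to_le hRS
      have hne' : Q' ≠ R := fun h => hRQ h.symm
      obtain ⟨g₁, hg₁, hg₁Q⟩ := Helper84.exists_mem_normalizerIn_not_mem hRp hQR hne'
      have hN'R : normalizerIn R Q' ≤ R := Helper84.normalizerIn_le R Q'
      have hN'S : normalizerIn R Q' ≤ normalizerIn S Q' := inf_le_inf_right _ hRS
      have hQ'N' : Q' ≤ normalizerIn R Q' := Helper84.le_normalizerIn hQR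
      haveI : Finite (normalizerIn R Q') := Helper84.finite_of_le (hN'R.trans hRS)
      have hlt : Nat.card P < Nat.card (normalizerIn R Q') := by
        rw [← hcardQ]
        exact Helper84.card_lt_of_le_of_not_mem hQ'N' hg₁ hg₁Q
      have hIN := hI _ (hN'R.trans hRS) hlt ⟨Q', hQ'N', hconj⟩
      have hmorfN : Mor F (normalizerIn R Q') f := hmorf.res hN'R
      have hfN := mor_map_normalizer hmorfN hQ'N' hN'S
      have hξ : Mor F (normalizerIn R Q') (fun y => χ'' (f y)) := hmorfN.comp hχ'' hfN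
      have hξimg : img Q' (fun y => χ'' (f y)) = P := by
        rw [Helper88.img_comp hmorfQ hχ'' (fun x hx => hfN x (hQ'N' hx))]
        exact hχ''img
      obtain ⟨w, hw, a₀, ha₀, hrel⟩ := beta_dec F hfa hχ'Q hχ'img (hξ.res hQ'N') hξimg
      have hκf : KMor F p (normalizerIn R Q') f := KMor.res hRS hf hN'R (fun _ _ => rfl)
      have hκξ := hκf.comp' hκ₂ hfN
      have hm := compat2 hS F hF hfn hMn hhyp hcent hIN hQ'N' hN'S hξ (hχ'.res hN'S) hξimg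
        hχ'img hs'' hs' hκξ (hκ₁.restrict hN'S) (fun y hy => hd'' (f y) (hfN y hy))
        (fun y hy => hd' y (hN'S hy)) hw ha₀ hrel
      refine ⟨w, hw, a₀, ha₀, fun x hx => ?_, hm⟩
      rw [hfg x hx]
      exact hrel x hx
  | @comp Q' f g h hf hg hh ihf ihg =>
    intro hconj χ' s' χ'' s'' hadm' hadm''
    have hmorf := hf.mor
    have hmorg := hg.mor
    have e1 : img Q' h = img (img Q' f) g := by
      rw [Helper88.img_congr hh]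
      exact Helper88.img_comp hmorf hmorg (fun x hx => hmorf.apply_mem_img hx)
    rw [e1] at hadm''
    have hconj₁ : F.IsConj (img Q' f) P :=
      Helper84.isConj_trans F (Helper84.isConj_symm F (Helper88.isConj_of_mor hmorf)) hconj
    obtain ⟨χ₁, s₁, hadm₁⟩ := exists_adm hS F hF hfa hrec hconj₁
    obtain ⟨v₁, hv₁, a₁, ha₁, hrel₁, hm₁⟩ := ihf hconj χ' s' χ₁ s₁ hadm' hadm₁
    obtain ⟨v₂, hv₂, a₂, ha₂, hrel₂, hm₂⟩ := ihg hconj₁ χ₁ s₁ χ'' s'' hadm₁ hadm''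
    have hv₁' : v₁⁻¹ ∈ normalizerIn S P := Subgroup.inv_mem _ hv₁
    have ha₂' : RA F p P (fun z => v₁⁻¹ * a₂ (v₁⁻¹⁻¹ * z * v₁⁻¹) * v₁⁻¹⁻¹) :=
      ra_conj_self F hPS ha₂ hv₁'
    refine ⟨v₂ * v₁, Subgroup.mul_mem _ hv₂ hv₁,
      fun z => v₁⁻¹ * a₂ (v₁⁻¹⁻¹ * a₁ z * v₁⁻¹) * v₁⁻¹⁻¹, ha₁.comp ha₂', fun x hx => ?_, ?_⟩
    · rw [hh x hx, hrel₂ (f x) (hmorf.apply_mem_img hx), hrel₁ x hx, inv_inv]
      group
    · have e : s''⁻¹ * (v₂ * v₁) * s' = (s''⁻¹ * v₂ * s₁) * (s₁⁻¹ * v₁ * s') := by group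
      rw [e]
      exact M.mul_mem hm₂ hm₁

end Cfsg.Agent.Lib.Helper87
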