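import Mathlib
import Cfsg.Prelude.Def_FusionSystem
import Cfsg.Agent.Lib.Helper87.HPe

set_option autoImplicit false

namespace Cfsg.Agent.Lib.Helper87

open Cfsg Cfsg.FusionSystem
open Cfsg.Agent.Lib.Helper88 (Mor extFun extFun_mem extFun_apply img mor_of_hom hom_of_mor mor_conj mor_id)

variable {Ω : Type*} [Group Ω] {S : Subgroup Ω}

theorem centralizerIn_anti {A B : Subgroup Ω} (h : A ≤ B) :
    centralizerIn S B ≤ centralizerIn S A :=
  inf_le_inf_left S (Subgroup.centralizer_le h)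

theorem img_of_conj_rel {F : FusionSystem S} {Q : Subgroup Ω} {κ κ' : Ω → Ω} {u : Ω}
    (hκ : Mor F Q κ) (hκ' : Mor F Q κ') (hrel : ∀ x ∈ Q, κ' x = u * κ x * u⁻¹) :
    img Q κ' = cj u (img Q κ) := by
  ext z
  rw [mem_cj, hκ'.mem_img, hκ.mem_img]
  constructor
  · rintro ⟨x, hx, rfl⟩
    exact ⟨x, hx, by rw [hrel x hx]; group⟩
  · rintro ⟨x, hx, hxz⟩
    exact ⟨x, hx, by rw [hrel x hx, hxz]; group⟩

/-- **Well-definedness**: for `M` normalized by `S` and containing the hyperfocal subgroup, a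
subgroup all of whose conjugates have their centralizers inside `M` is of type I. -/
theorem typeI_of_centCond [Finite S] {p : ℕ} [Fact p.Prime] (hS : IsPGroup p S)
    (F : FusionSystem S) (hF : F.IsSaturated p) {M : Subgroup Ω}
    (hMn : ∀ s ∈ S, ∀ m ∈ M, s * m * s⁻¹ ∈ M) (hhyp : F.hyperfocalSubgroup p ≤ M)
    {Q : Subgroup Ω} (hQS : Q ≤ S) (hcc : CentCond F M Q) : TypeI F p M Q := by
  have key : ∀ n : ℕ, ∀ Q : Subgroup Ω, Q ≤ S → Nat.card S - Nat.card Q = n →
      CentCond F M Q → TypeI F p M Q := by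
    intro n
    induction n using Nat.strong_induction_on with
    | _ n ih =>
      intro Q hQS hn hcc κ κ' u hκ hκ' hu hrel
      have hIH : ∀ N₁ : Subgroup Ω, N₁ ≤ S → Nat.card Q < Nat.card N₁ → CentCond F M N₁ →
          TypeI F p M N₁ := by
        intro N₁ hN₁S hlt hcc₁
        have hle : Nat.card N₁ ≤ Nat.card S := Subgroup.card_le_of_le hN₁S
        exact ih (Nat.card S - Nat.card N₁) (by omega) N₁ hN₁S rfl hcc₁
      by_cases hQe : Q = S
      · rw [hQe] at hκ hκ' hrel hcc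
        have hr1 := hκ.top rfl
        have hr2 := hκ'.top rfl
        obtain ⟨g₀, hg₀, hg₀κ, hκg₀⟩ := hr1.inv
        have hcu : RA F p S (fun x => u * x * u⁻¹) := by
          refine (hg₀.comp hr2).congr (fun x hx => ?_)
          rw [hrel _ (hg₀.mem hx), hκg₀ x hx]
        obtain ⟨hfa, hrec⟩ := Helper88.saturated_top hF
        obtain ⟨h, hh, c, hc, rfl⟩ := h1 F hfa hrec hu hcu
        exact M.mul_mem (hhyp hh) (hcc S (Helper88.isConj_self F le_rfl) hc)
      · obtain ⟨P, hconj, hfn⟩ := Helper84.exists_fullyNormalized_conj F hQS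
        have hPS : P ≤ S := hfn.1
        have hfa := Helper84.fullyAutomized_of_fullyNormalized p hS F hF hfn
        have hrec := Helper84.receptive_of_fullyCentralized p hS F hF
          (Helper84.fullyCentralized_of_fullyNormalized p hS F hF hfn)
        have hcardP : Nat.card P = Nat.card Q := by
          obtain ⟨k, hk, hkimg⟩ := (Helper88.isConj_iff F).mp hconj
          rw [← hkimg, hk.card_img]
        have hPne : P ≠ S := by
          intro h
          apply hQe
          rw [h] at hcardP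
          exact Subgroup.eq_of_le_of_card_ge hQS (le_of_eq hcardP)
        have hccP : centralizerIn S P ≤ M := hcc P hconj
        have hI : ∀ N₁ : Subgroup Ω, N₁ ≤ S → Nat.card P < Nat.card N₁ →
            (∃ Q₁, Q₁ ≤ N₁ ∧ F.IsConj Q₁ P) → TypeI F p M N₁ := by
          intro N₁ hN₁S hlt ⟨Q₁, hQ₁N, hQ₁P⟩
          apply hIH N₁ hN₁S (hcardP ▸ hlt)
          intro N₁' hN₁'
          obtain ⟨f₁, hf₁, hf₁img⟩ := (Helper88.isConj_iff F).mp hN₁'
          have hle : img Q₁ f₁ ≤ N₁' := by rw [← hf₁img]; exact Helper88.img_mono hf₁ hQ₁N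
          have hc1 : F.IsConj Q (img Q₁ f₁) :=
            Helper84.isConj_trans F hconj (Helper84.isConj_trans F (Helper84.isConj_symm F hQ₁P)
              (Helper88.isConj_of_mor (hf₁.res hQ₁N)))
          exact (centralizerIn_anti hle).trans (hcc _ hc1)
        have hmorκ := hκ.mor
        have hmorκ' := hκ'.mor
        have hconj₁ : F.IsConj (img Q κ) P :=
          Helper84.isConj_trans F (Helper84.isConj_symm F (Helper88.isConj_of_mor hmorκ)) hconj
        have hconj₂ : F.IsConj (img Q κ') P :=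
          Helper84.isConj_trans F (Helper84.isConj_symm F (Helper88.isConj_of_mor hmorκ')) hconj
        obtain ⟨χQ, sQ, hadmQ⟩ := exists_adm hS F hF hfa hrec hconj
        obtain ⟨χ₁, s₁, hadm₁⟩ := exists_adm hS F hF hfa hrec hconj₁
        obtain ⟨χ₂, s₂, hadm₂⟩ := exists_adm hS F hF hfa hrec hconj₂
        obtain ⟨v, hv, a, ha, hrelκ, hm⟩ :=
          kl hS F hF hfn hMn hhyp hccP hPne hI hκ hconj χQ sQ χ₁ s₁ hadmQ hadm₁
        obtain ⟨v', hv', a', ha', hrelκ', hm'⟩ :=
          kl hS F hF hfn hMn hhyp hccP hPne hI hκ' hconj χQ sQ χ₂ s₂ hadmQ hadm₂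
        obtain ⟨hχ₁, hχ₁img, hs₁, κ₁, hκ₁, hd₁⟩ := hadm₁
        obtain ⟨hχ₂, hχ₂img, hs₂, κ₂, hκ₂, hd₂⟩ := hadm₂
        have hQ₂ : img Q κ' = cj u (img Q κ) := img_of_conj_rel hmorκ hmorκ' hrel
        have hQ₁S : img Q κ ≤ S := hmorκ.img_le
        have hQ₁N : img Q κ ≤ normalizerIn S (img Q κ) := Helper84.le_normalizerIn hQ₁S
        have hcu : ∀ y ∈ normalizerIn S (img Q κ), u * y * u⁻¹ ∈ normalizerIn S (img Q κ') := by
          intro y hy
          rw [hQ₂]
          exact conj_mem_normalizerIn hu hy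
        have hξ : Mor F (normalizerIn S (img Q κ)) (fun y => χ₂ (u * y * u⁻¹)) :=
          (mor_conj F (Helper84.normalizerIn_le S _) hu).comp hχ₂ hcu
        have hξimg : img (img Q κ) (fun y => χ₂ (u * y * u⁻¹)) = P := by
          rw [Helper88.img_comp (mor_conj F hQ₁S hu) hχ₂ (fun y hy => hcu y (hQ₁N hy)), img_conj,
            ← hQ₂]
          exact hχ₂img
        have hκ₂' := (hκ₂.conj (S.inv_mem hu)).restrict (P' := normalizerIn S (img Q κ)) (by
          intro y hy
          rw [mem_cj, inv_inv]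
          exact hcu y hy)
        have hξd : ∀ y ∈ normalizerIn S (img Q κ), χ₂ (u * y * u⁻¹) =
            (s₂ * u) * (u⁻¹ * κ₂ (u⁻¹⁻¹ * y * u⁻¹) * u⁻¹⁻¹) * (s₂ * u)⁻¹ := by
          intro y hy
          rw [hd₂ _ (hcu y hy), inv_inv]
          group
        have hcardQ₁ : Nat.card (img Q κ) = Nat.card P := by rw [hmorκ.card_img, hcardP]
        have hneQ₁ : img Q κ ≠ S := by
          intro h
          apply hPne
          rw [h] at hcardQ₁
          exact Subgroup.eq_of_le_of_card_ge hPS (le_of_eq hcardQ₁)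
        obtain ⟨g₁, hg₁, hg₁Q⟩ := Helper84.exists_mem_normalizerIn_not_mem hS hQ₁S hneQ₁
        haveI : Finite (normalizerIn S (img Q κ)) :=
          Helper84.finite_of_le (Helper84.normalizerIn_le S _)
        have hlt : Nat.card P < Nat.card (normalizerIn S (img Q κ)) := by
          rw [← hcardQ₁]
          exact Helper84.card_lt_of_le_of_not_mem hQ₁N hg₁ hg₁Q
        have hIN := hI _ (Helper84.normalizerIn_le S _) hlt ⟨_, hQ₁N, hconj₁⟩
        obtain ⟨g₀, hg₀, hg₀a, -⟩ := ha.inv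
        have ha₀ : RA F p P (fun z => v * a' (g₀ (v⁻¹ * z * v)) * v⁻¹) :=
          ra_conj_self F hPS (hg₀.comp ha') hv
        have hχQP : ∀ x ∈ Q, χQ x ∈ P := by
          intro x hx
          rw [← hadmQ.2.1]
          exact (hadmQ.1.res (Helper84.le_normalizerIn hQS)).apply_mem_img hx
        have hrel' : ∀ y ∈ img Q κ, χ₂ (u * y * u⁻¹) =
            (v' * v⁻¹) * (v * a' (g₀ (v⁻¹ * χ₁ y * v)) * v⁻¹) * (v' * v⁻¹)⁻¹ := by
          intro y hy
          obtain ⟨x, hx, rfl⟩ := hmorκ.mem_img.mp hy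
          rw [← hrel x hx, hrelκ' x hx, hrelκ x hx]
          have e : v⁻¹ * (v * a (χQ x) * v⁻¹) * v = a (χQ x) := by group
          rw [e, hg₀a _ (hχQP x hx)]
          group
        have hm3 := compat2 hS F hF hfn hMn hhyp hccP hIN hQ₁N le_rfl hξ hχ₁ hξimg hχ₁img
          (S.mul_mem hs₂ hu) hs₁ hκ₂' hκ₁ hξd hd₁
          (Subgroup.mul_mem _ hv' (Subgroup.inv_mem _ hv)) ha₀ hrel'
        have e : u⁻¹ = ((s₂ * u)⁻¹ * (v' * v⁻¹) * s₁) * (s₁⁻¹ * v * sQ) *
            (s₂⁻¹ * v' * sQ)⁻¹ := by group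
        have h4 : u⁻¹ ∈ M := by
          rw [e]
          exact M.mul_mem (M.mul_mem hm3 hm) (M.inv_mem hm')
        have h5 := M.inv_mem h4
        rwa [inv_inv] at h5
  exact key _ Q hQS rfl hcc

end Cfsg.Agent.Lib.Helper87
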