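import Mathlib
import Cfsg.Prelude.Def_FusionSystem
import Cfsg.Agent.Lib.Helper87.HPf
import Cfsg.Agent.Lib.Helper47.Syl
import Cfsg.Agent.Lib.Helper88.LocalGroupA

set_option autoImplicit false

namespace Cfsg.Agent.Lib.Helper87

open Cfsg Cfsg.FusionSystem
open Cfsg.Agent.Lib.Helper88 (Mor extFun extFun_mem extFun_apply img mor_of_hom hom_of_mor mor_conj mor_id)

variable {Ω : Type*} [Group Ω] {S : Subgroup Ω}

/-- a Sylow subgroup of `A` meets a subgroup `B` normalized by `A` in a Sylow subgroup of `B`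
(in the form used for automorphism groups). -/
theorem sylow_inf_of_normal87 {G₀ : Type*} [Group G₀] {p : ℕ} [Fact p.Prime]
    {A B U V : Subgroup G₀} [Finite A] (hBA : B ≤ A) (hVB : V ≤ B) (hVU : V ≤ U)
    (hR : ∃ R : Sylow p A, (R : Subgroup A) = U.subgroupOf A)
    (hn : ∀ a ∈ A, ∀ b ∈ B, a * b * a⁻¹ ∈ B)
    (hUB : ∀ x ∈ U, x ∈ B → x ∈ V) :
    ∃ R' : Sylow p B, (R' : Subgroup B) = V.subgroupOf B := by
  obtain ⟨R, hR⟩ := hR
  haveI : Finite B := Finite.of_injective _ (Subgroup.inclusion_injective hBA)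
  have hVp : IsPGroup p (V.subgroupOf B) := by
    rintro ⟨⟨v, hvB⟩, hv⟩
    have hvU : (⟨v, hBA hvB⟩ : A) ∈ (R : Subgroup A) := by
      rw [hR]; exact Subgroup.mem_subgroupOf.2 (hVU (Subgroup.mem_subgroupOf.1 hv))
    obtain ⟨k, hk⟩ := R.isPGroup' ⟨_, hvU⟩
    refine ⟨k, ?_⟩
    have h1 := congrArg (fun x : (R : Subgroup A) => ((x : A) : G₀)) hk
    apply Subtype.ext; apply Subtype.ext
    simpa using h1
  obtain ⟨Q, hQ⟩ := hVp.exists_le_sylow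
  refine ⟨Q, (Subgroup.eq_of_le_of_card_ge hQ ?_).symm⟩
  have hQ' : IsPGroup p (((Q : Subgroup B).map B.subtype).subgroupOf A) :=
    (Q.isPGroup'.map _).comap_of_injective _ A.subtype_injective
  obtain ⟨g, hg⟩ := Helper47.exists_conj_le_sylow hQ' R
  have hmem : ∀ q : (Q : Subgroup B), (g : G₀) * ((q : B) : G₀) * (g : G₀)⁻¹ ∈ V := by
    intro q
    have hqB : ((q : B) : G₀) ∈ B := (q : B).2
    have h1 : (⟨((q : B) : G₀), hBA hqB⟩ : A) ∈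
        ((Q : Subgroup B).map B.subtype).subgroupOf A := by
      rw [Subgroup.mem_subgroupOf]; exact ⟨(q : B), q.2, rfl⟩
    have h2 := hg ⟨_, h1, rfl⟩
    rw [hR, Subgroup.mem_subgroupOf] at h2
    exact hUB _ (by simpa using h2) (hn g g.2 _ hqB)
  have hmemB : ∀ q : (Q : Subgroup B), (g : G₀) * ((q : B) : G₀) * (g : G₀)⁻¹ ∈ B :=
    fun q => hVB (hmem q)
  have hf : Function.Injective (fun q : (Q : Subgroup B) =>
      (⟨⟨_, hmemB q⟩, Subgroup.mem_subgroupOf.2 (hmem q)⟩ : V.subgroupOf B)) := by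
    intro q₁ q₂ h
    have h1 : (g : G₀) * ((q₁ : B) : G₀) * (g : G₀)⁻¹ = (g : G₀) * ((q₂ : B) : G₀) * (g : G₀)⁻¹ :=
      congrArg (fun x : V.subgroupOf B => ((x : B) : G₀)) h
    have h2 : ((q₁ : B) : G₀) = ((q₂ : B) : G₀) := mul_left_cancel (mul_right_cancel h1)
    exact Subtype.ext (Subtype.ext h2)
  exact Nat.card_le_card_of_injective _ hf

theorem kmor_mem_iff {F : FusionSystem S} {p : ℕ} {M : Subgroup Ω}
    (hhyp : F.hyperfocalSubgroup p ≤ M) {P : Subgroup Ω} {κ : Ω → Ω} (hκ : KMor F p P κ)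
    {x : Ω} (hx : x ∈ P) : κ x ∈ M ↔ x ∈ M := by
  have h1 := hhyp (hκ.hyp x hx)
  constructor
  · intro h
    have h2 : x = κ x * (x⁻¹ * κ x)⁻¹ := by group
    rw [h2]; exact M.mul_mem h (M.inv_mem h1)
  · intro h
    have h2 : κ x = x * (x⁻¹ * κ x) := by group
    rw [h2]; exact M.mul_mem h h1

theorem conj_mem_iff87 {M : Subgroup Ω} (hMn : ∀ s ∈ S, ∀ m ∈ M, s * m * s⁻¹ ∈ M) {s : Ω}
    (hs : s ∈ S) {y : Ω} : s * y * s⁻¹ ∈ M ↔ y ∈ M := by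
  constructor
  · intro h
    have h1 := hMn s⁻¹ (S.inv_mem hs) _ h
    have h2 : s⁻¹ * (s * y * s⁻¹) * s⁻¹⁻¹ = y := by group
    rw [h2] at h1; exact h1
  · exact hMn s hs y

theorem mor_mem_iff87 [Finite S] {p : ℕ} [Fact p.Prime] (hS : IsPGroup p S) (F : FusionSystem S)
    (hF : F.IsSaturated p) {M : Subgroup Ω} (hMn : ∀ s ∈ S, ∀ m ∈ M, s * m * s⁻¹ ∈ M)
    (hhyp : F.hyperfocalSubgroup p ≤ M) {R : Subgroup Ω} {f : Ω → Ω} (hf : Mor F R f) {x : Ω}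
    (hx : x ∈ R) : f x ∈ M ↔ x ∈ M := by
  obtain ⟨s, hs, κ, hκ, hfκ⟩ := frattini hS F hF hf
  rw [hfκ x hx, conj_mem_iff87 hMn hs, kmor_mem_iff hhyp hκ hx]

theorem mor_kSys_conj {F : FusionSystem S} {p : ℕ} {M : Subgroup Ω} (hMS : M ≤ S)
    (hhyp : F.hyperfocalSubgroup p ≤ M) (hMn : ∀ s ∈ S, ∀ m ∈ M, s * m * s⁻¹ ∈ M)
    {P : Subgroup Ω} {f : Ω → Ω} (hf : Mor (kSys F p M hMS hhyp) P f) {s : Ω} (hs : s ∈ S) :
    Mor (kSys F p M hMS hhyp) (cj s P) (fun y => s * f (s⁻¹ * y * s) * s⁻¹) := by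
  rw [mor_kSys_iff] at hf ⊢
  obtain ⟨hP, t, ht, κ, hκ, hfκ⟩ := hf
  refine ⟨?_, s * t * s⁻¹, hMn s hs t ht, _, hκ.conj hs, ?_⟩
  · intro y hy
    have h1 := hP (mem_cj.1 hy)
    have h2 := hMn s hs _ h1
    have h3 : s * (s⁻¹ * y * s) * s⁻¹ = y := by group
    rw [h3] at h2; exact h2
  · intro y hy
    show s * f (s⁻¹ * y * s) * s⁻¹ =
      s * t * s⁻¹ * (s * κ (s⁻¹ * y * s) * s⁻¹) * (s * t * s⁻¹)⁻¹
    rw [hfκ _ (mem_cj.1 hy)]
    group

theorem cent_dichotomy [Finite S] {p : ℕ} [Fact p.Prime] (hS : IsPGroup p S) (F : FusionSystem S)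
    (hF : F.IsSaturated p) {M : Subgroup Ω} (hMn : ∀ s ∈ S, ∀ m ∈ M, s * m * s⁻¹ ∈ M)
    (hhyp : F.hyperfocalSubgroup p ≤ M) {P₁ : Subgroup Ω} (hrec : F.IsReceptive P₁) :
    CentCond F M P₁ ∨ ∃ c₀ ∈ centralizerIn S P₁, c₀ ∉ M := by
  by_cases hcc : CentCond F M P₁
  · exact Or.inl hcc
  · right
    unfold CentCond at hcc
    push_neg at hcc
    obtain ⟨Q', hconj, hnot⟩ := hcc
    obtain ⟨c, hc, hcM⟩ := SetLike.not_le_iff_exists.1 hnot
    obtain ⟨k, hk, hkimg⟩ := (Helper88.isConj_iff F).mp hconj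
    obtain ⟨f, hf, himg, -, -⟩ := hk.exists_inv_img hkimg
    obtain ⟨f', hf', hf'f⟩ := Helper88.receptive_extend_cent hrec hf himg
    have hcD : c ∈ Q' ⊔ centralizerIn S Q' := (le_sup_right : centralizerIn S Q' ≤ _) hc
    refine ⟨f' c, ?_, ?_⟩
    · rw [Helper84.mem_centralizerIn]
      refine ⟨hf'.mem_S hcD, ?_⟩
      intro y hy
      rw [← himg] at hy
      obtain ⟨x, hx, rfl⟩ := hf.mem_img.mp hy
      rw [← hf'f x hx]
      have hxD : x ∈ Q' ⊔ centralizerIn S Q' := (le_sup_left : Q' ≤ _) hx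
      rw [← hf'.map_mul hxD hcD, ← hf'.map_mul hcD hxD]
      congr 1
      exact (Helper84.mem_centralizerIn.1 hc).2 x hx
    · rw [mor_mem_iff87 hS F hF hMn hhyp hf' hcD]; exact hcM

theorem cj_inv_cj (s : Ω) (P : Subgroup Ω) : cj s⁻¹ (cj s P) = P := by
  ext y
  rw [mem_cj, mem_cj]
  have h : s⁻¹ * (s⁻¹⁻¹ * y * s⁻¹) * s = y := by group
  rw [h]

theorem card_normalizerIn_cj_ge [Finite S] {s : Ω} (hs : s ∈ S) (P : Subgroup Ω) :
    Nat.card (normalizerIn S P) ≤ Nat.card (normalizerIn S (cj s P)) := by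
  have h1 : cj s (normalizerIn S P) ≤ normalizerIn S (cj s P) := by
    intro y hy
    rw [mem_cj, Helper84.mem_normalizerIn] at hy
    rw [Helper84.mem_normalizerIn]
    refine ⟨?_, fun x => ?_⟩
    · have h2 : y = s * (s⁻¹ * y * s) * s⁻¹ := by group
      rw [h2]; exact S.mul_mem (S.mul_mem hs hy.1) (S.inv_mem hs)
    · rw [mem_cj, mem_cj, hy.2 (s⁻¹ * x * s)]
      have h3 : s⁻¹ * y * s * (s⁻¹ * x * s) * (s⁻¹ * y * s)⁻¹ = s⁻¹ * (y * x * y⁻¹) * s := by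
        group
      rw [h3]
  haveI : Finite (normalizerIn S (cj s P)) :=
    Helper84.finite_of_le (Helper84.normalizerIn_le S (cj s P))
  calc Nat.card (normalizerIn S P) = Nat.card (cj s (normalizerIn S P)) :=
        (Subgroup.card_map_of_injective (MulAut.conj s).injective).symm
    _ ≤ _ := Subgroup.card_le_of_le h1

theorem kSys_fa [Finite S] {p : ℕ} [Fact p.Prime] (hS : IsPGroup p S) (F : FusionSystem S)
    (hF : F.IsSaturated p) {M : Subgroup Ω} (hMS : M ≤ S)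
    (hhyp : F.hyperfocalSubgroup p ≤ M) (hMn : ∀ s ∈ S, ∀ m ∈ M, s * m * s⁻¹ ∈ M)
    (hmax : ∀ c ∈ S, c ∉ M → ∀ s ∈ S, ∃ m ∈ M, ∃ k : ℕ, s = m * c ^ k)
    {P₁ : Subgroup Ω} (hP₁ : P₁ ≤ M) (hfa : F.IsFullyAutomized p P₁)
    (hdich : CentCond F M P₁ ∨ ∃ c₀ ∈ centralizerIn S P₁, c₀ ∉ M) :
    (kSys F p M hMS hhyp).IsFullyAutomized p P₁ := by
  have hP₁S : P₁ ≤ S := hP₁.trans hMS
  refine ⟨hP₁, ?_⟩
  haveI : Finite (F.autGroup P₁) := Helper84.finite_autGroup F hP₁S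
  have hEF : ∀ {f : Ω → Ω}, Mor (kSys F p M hMS hhyp) P₁ f → Mor F P₁ f := by
    rintro f ⟨φ, hφ, hφf⟩
    exact ⟨φ, kSys_sub hMS hhyp _ hφ, hφf⟩
  apply sylow_inf_of_normal87 (A := F.autGroup P₁) (U := autInducedBy S P₁) ?_
    (Helper84.autInducedBy_le_autGroup _ hP₁) ?_ hfa.2 ?_ ?_
  · -- B ≤ A
    intro α hα
    rw [Helper88.mem_autGroup_iff _ hP₁] at hα
    rw [Helper88.mem_autGroup_iff F hP₁S]
    exact hEF hα
  · -- V ≤ U
    intro α hα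
    rw [Helper88.mem_autInducedBy_iff] at hα ⊢
    obtain ⟨g, hg, h⟩ := hα
    exact ⟨g, hMS hg, h⟩
  · -- normality
    intro a ha b hb
    rw [Helper88.mem_autGroup_iff F hP₁S] at ha
    rw [Helper88.mem_autGroup_iff _ hP₁] at hb ⊢
    obtain ⟨s, hs, κ, hκ, haκ⟩ := frattini hS F hF ha
    have hκE : Mor (kSys F p M hMS hhyp) P₁ κ :=
      (mor_kSys_iff hMS hhyp).2 ⟨hP₁, 1, M.one_mem, κ, hκ, fun x _ => by simp⟩
    obtain ⟨κ', hκ', hκ'κ⟩ := hκ.inv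
    have hP₂ : img P₁ κ ≤ M := by
      intro y hy
      obtain ⟨x, hx, rfl⟩ := hκ.mor.mem_img.mp hy
      exact (kmor_mem_iff hhyp hκ hx).2 (hP₁ hx)
    have hκ'E : Mor (kSys F p M hMS hhyp) (img P₁ κ) κ' :=
      (mor_kSys_iff hMS hhyp).2 ⟨hP₂, 1, M.one_mem, κ', hκ', fun x _ => by simp⟩
    have hκ'mem : ∀ y ∈ img P₁ κ, κ' y ∈ P₁ := by
      intro y hy
      obtain ⟨x, hx, rfl⟩ := hκ.mor.mem_img.mp hy
      rw [hκ'κ x hx]; exact hx
    have hbmem : ∀ x ∈ P₁, extFun (fun x : P₁ => ((b x : P₁) : Ω)) x ∈ P₁ := by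
      intro x hx
      rw [extFun_mem _ hx]; exact (b ⟨x, hx⟩).2
    have h1 := ((hκ'E.comp hb hκ'mem).comp hκE (fun y hy => hbmem _ (hκ'mem y hy)))
    have h2 := mor_kSys_conj hMS hhyp hMn h1 hs
    have e : cj s (img P₁ κ) = P₁ := by
      ext y
      rw [mem_cj, hκ.mor.mem_img]
      constructor
      · rintro ⟨x, hx, hxy⟩
        have h3 := haκ x hx
        rw [hxy, extFun_mem _ hx] at h3
        have h4 : s * (s⁻¹ * y * s) * s⁻¹ = y := by group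
        rw [h4] at h3
        rw [← h3]; exact (a ⟨x, hx⟩).2
      · intro hy
        obtain ⟨z, hz⟩ : ∃ z : P₁, a z = ⟨y, hy⟩ := ⟨a⁻¹ ⟨y, hy⟩, by simp⟩
        refine ⟨z, z.2, ?_⟩
        have h3 := haκ z z.2
        rw [extFun_apply, hz] at h3
        have h3' : y = s * κ z * s⁻¹ := h3
        rw [h3']; group
    rw [e] at h2
    refine h2.congr ?_
    intro y hy
    obtain ⟨z, hz⟩ : ∃ z : P₁, a z = ⟨y, hy⟩ := ⟨a⁻¹ ⟨y, hy⟩, by simp⟩
    have h3 := haκ z z.2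
    rw [extFun_apply, hz] at h3
    have h3' : y = s * κ z * s⁻¹ := h3
    have h4 : s⁻¹ * y * s = κ z := by rw [h3']; group
    rw [h4, hκ'κ z z.2, extFun_apply, extFun_mem _ hy]
    have h5 := haκ (b z) (b z).2
    rw [extFun_apply] at h5
    rw [← h5]
    have h6 : (a * b * a⁻¹) ⟨y, hy⟩ = a (b z) := by
      rw [← hz]; simp
    rw [h6]
  · -- U ⊓ B ≤ V
    intro α hαU hαB
    rw [Helper88.mem_autInducedBy_iff] at hαU ⊢
    obtain ⟨g, hg, hgα⟩ := hαU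
    rw [Helper88.mem_autGroup_iff _ hP₁, mor_kSys_iff] at hαB
    obtain ⟨-, t, ht, κ, hκ, hακ⟩ := hαB
    rcases hdich with hcc | ⟨c₀, hc₀, hc₀M⟩
    · have hT := typeI_of_centCond hS F hF hMn hhyp hP₁S hcc
      have hu : t⁻¹ * g ∈ M := by
        apply hT (fun x => x) κ (t⁻¹ * g) (KMor.id F p hP₁S) hκ
          (S.mul_mem (S.inv_mem (hMS ht)) hg)
        intro x hx
        have h1 := hακ x hx
        rw [extFun_mem _ hx, hgα] at h1
        have h2 : κ x = t⁻¹ * (t * κ x * t⁻¹) * t := by group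
        rw [h2, ← h1]; group
      refine ⟨g, ?_, hgα⟩
      have h3 : g = t * (t⁻¹ * g) := by group
      rw [h3]; exact M.mul_mem ht hu
    · obtain ⟨m, hm, k, hk⟩ := hmax c₀ (Helper84.centralizerIn_le S P₁ hc₀) hc₀M g hg
      refine ⟨m, hm, fun x => ?_⟩
      rw [hgα, hk]
      have hck : c₀ ^ k ∈ centralizerIn S P₁ := Subgroup.pow_mem _ hc₀ k
      have h1 := (Helper84.mem_centralizerIn.1 hck).2 x x.2
      have h2 : m * c₀ ^ k * (x : Ω) * (m * c₀ ^ k)⁻¹ = m * (c₀ ^ k * x) * (c₀ ^ k)⁻¹ * m⁻¹ := by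
        group
      rw [h2, ← h1]; group

theorem kSys_rec [Finite S] {p : ℕ} [Fact p.Prime] (hS : IsPGroup p S) (F : FusionSystem S)
    (hF : F.IsSaturated p) {M : Subgroup Ω} (hMS : M ≤ S)
    (hhyp : F.hyperfocalSubgroup p ≤ M) (hMn : ∀ s ∈ S, ∀ m ∈ M, s * m * s⁻¹ ∈ M)
    (hmax : ∀ c ∈ S, c ∉ M → ∀ s ∈ S, ∃ m ∈ M, ∃ k : ℕ, s = m * c ^ k)
    {P₁ : Subgroup Ω} (hP₁ : P₁ ≤ M) (hrec : F.IsReceptive P₁)
    (hdich : CentCond F M P₁ ∨ ∃ c₀ ∈ centralizerIn S P₁, c₀ ∉ M) :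
    (kSys F p M hMS hhyp).IsReceptive P₁ := by
  refine ⟨hP₁, ?_⟩
  intro Q φ hφ hr
  have hφF : φ ∈ F.Hom Q := kSys_sub hMS hhyp _ hφ
  have hle : extender M Q φ ≤ extender S Q φ := by
    apply Subgroup.closure_mono
    rintro g ⟨hg, hgn, h, hh, hgh⟩
    exact ⟨hMS hg, hgn, h, hMS hh, hgh⟩
  have hNM : extender M Q φ ≤ M := by
    show Subgroup.closure _ ≤ M
    rw [Subgroup.closure_le]
    rintro g ⟨hg, -⟩
    exact hg
  obtain ⟨ψ, hψ, hψφ⟩ := hrec.2 Q φ hφF hr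
  have hψ₁ : Mor F (extender M Q φ) (extFun ψ) := (mor_of_hom F hψ).res hle
  obtain ⟨s, hs, κ, hκ, hψκ⟩ := frattini hS F hF hψ₁
  obtain ⟨hQM, t, ht, κφ, hκφ, hφκ⟩ := (kSys_hom hMS hhyp).1 hφ
  have hQN : Q ≤ extender M Q φ :=
    Helper84.le_extender hQM φ ((kSys F p M hMS hhyp).le_of_mem hφ).2
  have hext : ∀ x (hx : x ∈ Q), extFun ψ x = φ ⟨x, hx⟩ := by
    intro x hx
    rw [extFun_mem _ (hle (hQN hx))]
    exact hψφ x hx _
  have key : ∃ t' ∈ M, ∀ x (hx : x ∈ Q), t' * κ x * t'⁻¹ = φ ⟨x, hx⟩ := by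
    rcases hdich with hcc | ⟨c₀, hc₀, hc₀M⟩
    · have hconj : F.IsConj P₁ Q := Helper84.isConj_symm F ⟨φ, hφF, hr⟩
      have hccQ : CentCond F M Q := fun Q' hQ' => hcc Q' (Helper84.isConj_trans F hconj hQ')
      have hT := typeI_of_centCond hS F hF hMn hhyp (hQM.trans hMS) hccQ
      have hu : s⁻¹ * t ∈ M := by
        apply hT κφ κ (s⁻¹ * t) hκφ (hκ.restrict hQN) (S.mul_mem (S.inv_mem hs) (hMS ht))
        intro x hx
        have h1 := hψκ x (hQN hx)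
        rw [hext x hx, hφκ ⟨x, hx⟩] at h1
        have h2 : κ x = s⁻¹ * (s * κ x * s⁻¹) * s := by group
        rw [h2, ← h1]; group
      refine ⟨s, ?_, fun x hx => ?_⟩
      · have h3 : s = t * (s⁻¹ * t)⁻¹ := by group
        rw [h3]; exact M.mul_mem ht (M.inv_mem hu)
      · rw [← hψκ x (hQN hx)]; exact hext x hx
    · obtain ⟨m, hm, k, hk⟩ :=
        hmax c₀ (Helper84.centralizerIn_le S P₁ hc₀) hc₀M s⁻¹ (S.inv_mem hs)
      refine ⟨c₀ ^ k * s, ?_, fun x hx => ?_⟩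
      · have h3 : c₀ ^ k * s = m⁻¹ := by
          have h4 : s = (m * c₀ ^ k)⁻¹ := by rw [← hk, inv_inv]
          rw [h4]; group
        rw [h3]; exact M.inv_mem hm
      · have h1 := hψκ x (hQN hx)
        rw [hext x hx] at h1
        have hck : c₀ ^ k ∈ centralizerIn S P₁ := Subgroup.pow_mem _ hc₀ k
        have hφP : φ ⟨x, hx⟩ ∈ P₁ := by rw [← hr]; exact ⟨⟨x, hx⟩, rfl⟩
        have h2 := (Helper84.mem_centralizerIn.1 hck).2 _ hφP
        have h3 : c₀ ^ k * s * κ x * (c₀ ^ k * s)⁻¹ =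
            c₀ ^ k * (s * κ x * s⁻¹) * (c₀ ^ k)⁻¹ := by group
        rw [h3, ← h1, ← h2]; group
  obtain ⟨t', ht', hkey⟩ := key
  have hmorE : Mor (kSys F p M hMS hhyp) (extender M Q φ) (fun x => t' * κ x * t'⁻¹) :=
    (mor_kSys_iff hMS hhyp).2 ⟨hNM, t', ht', κ, hκ, fun _ _ => rfl⟩
  obtain ⟨ψ', hψ', hψ'f⟩ := hmorE
  refine ⟨ψ', hψ', fun x hQ hN => ?_⟩
  rw [hψ'f ⟨x, hN⟩]
  exact hkey x hQ

/-- **Saturation** of the system `kSys F p M` over a subgroup `M` normalized by `S`, containing the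
hyperfocal subgroup and with `S / M` cyclic generated by any element outside `M`. -/
theorem kSys_saturated [Finite S] {p : ℕ} [Fact p.Prime] (hS : IsPGroup p S) (F : FusionSystem S)
    (hF : F.IsSaturated p) {M : Subgroup Ω} (hMS : M ≤ S)
    (hhyp : F.hyperfocalSubgroup p ≤ M) (hMn : ∀ s ∈ S, ∀ m ∈ M, s * m * s⁻¹ ∈ M)
    (hmax : ∀ c ∈ S, c ∉ M → ∀ s ∈ S, ∃ m ∈ M, ∃ k : ℕ, s = m * c ^ k) :
    (kSys F p M hMS hhyp).IsSaturated p := by
  intro P hP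
  have hPS : P ≤ S := hP.trans hMS
  obtain ⟨P₀, hconj, hfn⟩ := Helper84.exists_fullyNormalized_conj F hPS
  obtain ⟨f, hf, himg⟩ := (Helper88.isConj_iff F).mp hconj
  obtain ⟨s, hs, κ, hκ, hfκ⟩ := frattini hS F hF hf
  have hP₁ : img P κ ≤ M := by
    intro y hy
    obtain ⟨x, hx, rfl⟩ := hκ.mor.mem_img.mp hy
    exact (kmor_mem_iff hhyp hκ hx).2 (hP hx)
  have hP₁S := hP₁.trans hMS
  have hκE : Mor (kSys F p M hMS hhyp) P κ :=
    (mor_kSys_iff hMS hhyp).2 ⟨hP, 1, M.one_mem, κ, hκ, fun x _ => by simp⟩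
  have e0 : P₀ = cj s (img P κ) := by rw [← himg]; exact img_of_conj_rel hκ.mor hf hfκ
  have hfn₁ : F.IsFullyNormalized (img P κ) := by
    refine ⟨hP₁S, fun Q hQ => ?_⟩
    have hc1 : F.IsConj (img P κ) P₀ := by
      rw [e0, ← img_conj s (img P κ)]
      exact Helper88.isConj_of_mor (mor_conj F hP₁S hs)
    have hc2 : F.IsConj P₀ Q := Helper84.isConj_trans F (Helper84.isConj_symm F hc1) hQ
    have h1 := hfn.2 Q hc2
    have h2 := card_normalizerIn_cj_ge (S := S) (S.inv_mem hs) P₀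
    rw [e0] at h1
    rw [e0, cj_inv_cj] at h2
    exact h1.trans h2
  have hfa := Helper84.fullyAutomized_of_fullyNormalized p hS F hF hfn₁
  have hrec := Helper84.receptive_of_fullyCentralized p hS F hF
    (Helper84.fullyCentralized_of_fullyNormalized p hS F hF hfn₁)
  have hdich := cent_dichotomy hS F hF hMn hhyp hrec
  exact ⟨img P κ, Helper88.isConj_of_mor hκE, kSys_fa hS F hF hMS hhyp hMn hmax hP₁ hfa hdich,
    kSys_rec hS F hF hMS hhyp hMn hmax hP₁ hrec hdich⟩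

end Cfsg.Agent.Lib.Helper87
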