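import Mathlib
import Cfsg.Prelude.Def_FusionSystem
import Cfsg.Agent.Lib.Helper87.HPg

set_option autoImplicit false

namespace Cfsg.Agent.Lib.Helper87

open Cfsg Cfsg.FusionSystem
open Cfsg.Agent.Lib.Helper88 (Mor extFun extFun_mem extFun_apply img mor_of_hom hom_of_mor mor_conj mor_id)

variable {Ω : Type*} [Group Ω] {S : Subgroup Ω}

theorem fusionSystem_ext87 {T : Subgroup Ω} {E E' : FusionSystem T}
    (h : ∀ P, E.Hom P = E'.Hom P) : E = E' := by
  cases E with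
  | mk Hom a b c d e =>
  cases E' with
  | mk Hom' a' b' c' d' e' =>
  have h1 : Hom = Hom' := funext h
  subst h1
  rfl

theorem kSys_ppow {F : FusionSystem S} {p : ℕ} {T : Subgroup Ω} (hTS : T ≤ S)
    (hT : F.hyperfocalSubgroup p ≤ T) : (kSys F p T hTS hT).HasPPowerIndexIn F p := by
  refine ⟨kSys_sub hTS hT, hT, fun P hP α hα => ?_⟩
  rw [Helper88.mem_autGroup_iff _ hP, mor_kSys_iff]
  have hra : RA F p P (extFun (fun x : P => ((α x : P) : Ω))) :=
    ⟨α, hα, fun x => (extFun_apply (fun x : P => ((α x : P) : Ω)) x).symm⟩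
  exact ⟨hP, 1, T.one_mem, _, KMor.of_ra (hP.trans hTS) hra, fun x _ => by simp⟩

theorem autGroup_le_of_sub87 {M : Subgroup Ω} {E₁ : FusionSystem M} {F : FusionSystem S}
    (hMS : M ≤ S) (hsub : E₁.IsSubsystemOf F) {P : Subgroup Ω} (hP : P ≤ M) :
    E₁.autGroup P ≤ F.autGroup P := by
  intro a ha
  rw [Helper88.mem_autGroup_iff _ hP] at ha
  rw [Helper88.mem_autGroup_iff F (hP.trans hMS)]
  obtain ⟨φ, hφ, hφf⟩ := ha
  exact ⟨φ, hsub _ hφ, hφf⟩

theorem hyperfocal_mono87 {M : Subgroup Ω} {E₁ : FusionSystem M} {F : FusionSystem S} {p : ℕ}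
    (hMS : M ≤ S) (hsub : E₁.IsSubsystemOf F) :
    E₁.hyperfocalSubgroup p ≤ F.hyperfocalSubgroup p := by
  intro y hy
  unfold hyperfocalSubgroup at hy
  induction hy using Subgroup.closure_induction with
  | mem y hy =>
    obtain ⟨P, α, x, hP, hα, rfl⟩ := hy
    have hle := autGroup_le_of_sub87 hMS hsub hP
    have h1 : (α : MulAut P) ∈ (pResidual p ↥(F.autGroup P)).map (F.autGroup P).subtype := by
      have h2 : (α : MulAut P) ∈ (pResidual p ↥(E₁.autGroup P)).map (E₁.autGroup P).subtype :=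
        ⟨α, hα, rfl⟩
      rw [map_pResidual_eq_closure] at h2 ⊢
      exact Subgroup.closure_mono (show {a : MulAut P | a ∈ E₁.autGroup P ∧ (orderOf a).Coprime p} ⊆
        {a : MulAut P | a ∈ F.autGroup P ∧ (orderOf a).Coprime p} from
          fun a ha => ⟨hle ha.1, ha.2⟩) h2
    exact hyperfocal_gen F p (hP.trans hMS) h1 x
  | one => exact Subgroup.one_mem _
  | mul a b _ _ ha hb => exact Subgroup.mul_mem _ ha hb
  | inv a _ ha => exact Subgroup.inv_mem _ ha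

theorem ppow_trans87 {T M : Subgroup Ω} {E : FusionSystem T} {E₁ : FusionSystem M}
    {F : FusionSystem S} {p : ℕ} (hTM : T ≤ M) (h₁ : E.HasPPowerIndexIn E₁ p)
    (h₂ : E₁.HasPPowerIndexIn F p) (hT : F.hyperfocalSubgroup p ≤ T) :
    E.HasPPowerIndexIn F p := by
  refine ⟨fun P φ hφ => h₂.1 P (h₁.1 P hφ), hT, fun P hP => ?_⟩
  rw [map_pResidual_eq_closure, Subgroup.closure_le]
  rintro a ⟨haA, hcop⟩
  have h3 : a ∈ E₁.autGroup P := h₂.2.2 P (hP.trans hTM)
    (by rw [map_pResidual_eq_closure]; exact Subgroup.subset_closure ⟨haA, hcop⟩)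
  exact h₁.2.2 P hP (by rw [map_pResidual_eq_closure]; exact Subgroup.subset_closure ⟨h3, hcop⟩)

theorem ppow_refl87 (F : FusionSystem S) (p : ℕ) : F.HasPPowerIndexIn F p := by
  refine ⟨fun P => subset_rfl, hyperfocal_le F p, fun P _ => ?_⟩
  rintro _ ⟨a, -, rfl⟩
  exact a.2

theorem exists_max_normal87 [Finite S] {p : ℕ} [Fact p.Prime] (hS : IsPGroup p S) {T : Subgroup Ω}
    (hTS : T ≤ S) (hne : T ≠ S) :
    ∃ M : Subgroup Ω, T ≤ M ∧ M ≤ S ∧ M ≠ S ∧ (∀ s ∈ S, ∀ m ∈ M, s * m * s⁻¹ ∈ M) ∧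
      (∀ c ∈ S, c ∉ M → ∀ s ∈ S, ∃ m ∈ M, ∃ k : ℕ, s = m * c ^ k) := by
  let N : Set ℕ := {n | ∃ K : Subgroup Ω, T ≤ K ∧ K ≤ S ∧ K ≠ S ∧ Nat.card K = n}
  have hNne : N.Nonempty := ⟨_, T, le_rfl, hTS, hne, rfl⟩
  have hbdd : BddAbove N := ⟨Nat.card S, by
    rintro n ⟨K, -, hKS, -, rfl⟩
    exact Subgroup.card_le_of_le hKS⟩
  obtain ⟨M, hTM, hMS, hMne, hMcard⟩ := Nat.sSup_mem hNne hbdd
  have hmaxK : ∀ K : Subgroup Ω, M ≤ K → K ≤ S → K ≠ S → K = M := by
    intro K hMK hKS hKne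
    haveI : Finite K := Helper84.finite_of_le hKS
    have h1 : Nat.card K ≤ sSup N := le_csSup hbdd ⟨K, hTM.trans hMK, hKS, hKne, rfl⟩
    rw [← hMcard] at h1
    exact (Subgroup.eq_of_le_of_card_ge hMK h1).symm
  have hMn : ∀ s ∈ S, ∀ m ∈ M, s * m * s⁻¹ ∈ M := by
    obtain ⟨g, hg, hgM⟩ := Helper84.exists_mem_normalizerIn_not_mem hS hMS hMne
    have hNS : normalizerIn S M = S := by
      by_contra h
      have h2 := hmaxK (normalizerIn S M) (Helper84.le_normalizerIn hMS)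
        (Helper84.normalizerIn_le S M) h
      rw [h2] at hg
      exact hgM hg
    intro s hs m hm
    rw [← hNS] at hs
    exact ((Helper84.mem_normalizerIn.1 hs).2 m).1 hm
  refine ⟨M, hTM, hMS, hMne, hMn, ?_⟩
  intro c hc hcM
  let K : Subgroup Ω :=
    { carrier := {s | ∃ m ∈ M, ∃ k : ℤ, s = m * c ^ k}
      mul_mem' := by
        rintro _ _ ⟨m, hm, k, rfl⟩ ⟨m', hm', k', rfl⟩
        refine ⟨m * (c ^ k * m' * (c ^ k)⁻¹),
          M.mul_mem hm (hMn _ (S.zpow_mem hc k) m' hm'), k + k', ?_⟩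
        rw [zpow_add]; group
      one_mem' := ⟨1, M.one_mem, 0, by simp⟩
      inv_mem' := by
        rintro _ ⟨m, hm, k, rfl⟩
        refine ⟨c ^ (-k) * m⁻¹ * (c ^ (-k))⁻¹,
          hMn _ (S.zpow_mem hc (-k)) _ (M.inv_mem hm), -k, ?_⟩
        group }
  have hMK : M ≤ K := fun m hm => ⟨m, hm, 0, by simp⟩
  have hcK : c ∈ K := ⟨1, M.one_mem, 1, by simp⟩
  have hKS : K ≤ S := by
    rintro _ ⟨m, hm, k, rfl⟩
    exact S.mul_mem (hMS hm) (S.zpow_mem hc k)
  have hKeq : K = S := by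
    by_contra h
    have h2 := hmaxK K hMK hKS h
    rw [h2] at hcK
    exact hcM hcK
  intro s hs
  rw [← hKeq] at hs
  obtain ⟨m, hm, k, rfl⟩ := hs
  have hfin : IsOfFinOrder c :=
    Submonoid.isOfFinOrder_coe.2 (isOfFinOrder_of_finite (⟨c, hc⟩ : S))
  refine ⟨m, hm, (k % (orderOf c : ℤ)).toNat, ?_⟩
  have hpos : 0 < orderOf c := hfin.orderOf_pos
  have h1 : (0 : ℤ) ≤ k % (orderOf c : ℤ) := Int.emod_nonneg _ (by exact_mod_cast hpos.ne')
  rw [← zpow_natCast, Int.toNat_of_nonneg h1, zpow_mod_orderOf]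

theorem exists_ppow87 (p : ℕ) [Fact p.Prime] : ∀ n : ℕ, ∀ (S : Subgroup Ω) [Finite S],
    IsPGroup p S → ∀ F : FusionSystem S, F.IsSaturated p → Nat.card S = n → ∀ T : Subgroup Ω,
    T ≤ S → F.hyperfocalSubgroup p ≤ T →
    ∃ E : FusionSystem T, E.IsSaturated p ∧ E.HasPPowerIndexIn F p := by
  intro n
  induction n using Nat.strong_induction_on with
  | _ n ih =>
    intro S _ hS F hF hn T hTS hT
    by_cases hne : T = S
    · subst hne
      exact ⟨F, hF, ppow_refl87 F p⟩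
    · obtain ⟨M, hTM, hMS, hMne, hMn, hmax⟩ := exists_max_normal87 hS hTS hne
      have hhyp : F.hyperfocalSubgroup p ≤ M := hT.trans hTM
      have hsat₁ := kSys_saturated hS F hF hMS hhyp hMn hmax
      have hpp₁ := kSys_ppow (F := F) (p := p) hMS hhyp
      haveI : Finite M := Helper84.finite_of_le hMS
      have hlt : Nat.card M < n := by
        rw [← hn]
        by_contra h
        exact hMne (Subgroup.eq_of_le_of_card_ge hMS (not_lt.1 h))
      obtain ⟨E, hE, hEp⟩ := ih (Nat.card M) hlt M (hS.to_le hMS) (kSys F p M hMS hhyp) hsat₁ rfl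
        T hTM ((hyperfocal_mono87 hMS (kSys_sub hMS hhyp)).trans hT)
      exact ⟨E, hE, ppow_trans87 hTM hEp hpp₁ hT⟩

theorem ppow_le87 [Finite S] {p : ℕ} [Fact p.Prime] (hS : IsPGroup p S) {F : FusionSystem S}
    {T : Subgroup Ω} (hTS : T ≤ S) {E' E'' : FusionSystem T} (h' : E'.IsSaturated p)
    (hp' : E'.HasPPowerIndexIn F p) (hp'' : E''.HasPPowerIndexIn F p) : E' ≤ E'' := by
  haveI : Finite T := Helper84.finite_of_le hTS
  have hTp : IsPGroup p T := hS.to_le hTS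
  apply Helper84.alperin_ih p hTp E' h' E''
  intro P hfn _ α hα
  have hPT : P ≤ T := hfn.1
  have hfa := Helper84.fullyAutomized_of_fullyNormalized p hTp E' h' hfn
  obtain ⟨c, hc, β, hβ, rfl⟩ := exists_aut_mul_pResidual E' hfa hα
  apply Subgroup.mul_mem
  · exact Helper84.autInducedBy_le_autGroup E'' hPT hc
  · apply hp''.2.2 P hPT
    have hle := autGroup_le_of_sub87 hTS hp'.1 hPT
    rw [map_pResidual_eq_closure] at hβ ⊢
    exact Subgroup.closure_mono (show {a : MulAut P | a ∈ E'.autGroup P ∧ (orderOf a).Coprime p} ⊆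
      {a : MulAut P | a ∈ F.autGroup P ∧ (orderOf a).Coprime p} from
        fun a ha => ⟨hle ha.1, ha.2⟩) hβ

/-- **Existence and uniqueness** of the saturated subsystem of `p`-power index over a subgroup
containing the hyperfocal subgroup. -/
theorem ppow_exists_unique87 [Finite S] (p : ℕ) [Fact p.Prime] (hS : IsPGroup p S)
    (F : FusionSystem S) (hF : F.IsSaturated p) (T : Subgroup Ω) (hTS : T ≤ S)
    (hT : F.hyperfocalSubgroup p ≤ T) :
    ∃ E : FusionSystem T, (E.IsSaturated p ∧ E.HasPPowerIndexIn F p) ∧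
      ∀ E' : FusionSystem T, E'.IsSaturated p → E'.HasPPowerIndexIn F p → E' = E := by
  obtain ⟨E, hE, hEp⟩ := exists_ppow87 p (Nat.card S) S hS F hF rfl T hTS hT
  refine ⟨E, ⟨hE, hEp⟩, fun E' hE' hE'p => ?_⟩
  apply fusionSystem_ext87
  intro P
  exact Set.Subset.antisymm (ppow_le87 hS hTS hE' hE'p hEp P) (ppow_le87 hS hTS hE hEp hE'p P)

end Cfsg.Agent.Lib.Helper87
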