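import Mathlib
import Cfsg.Prelude.Def_FusionSystem
import Cfsg.Prelude.Def_PLocal
import Cfsg.Agent.Lib.Helper87.PowCenC

set_option autoImplicit false

namespace Cfsg.Agent.Lib.Helper87

open Cfsg Cfsg.FusionSystem

variable {Ω : Type*} [Group Ω] {S : Subgroup Ω}

/-- If moreover the system has trivial core, the exponent of `S` is bounded. -/
theorem exponent_dvd_of_core_eq_bot [Finite S] (p : ℕ) [Fact p.Prime] (hS : IsPGroup p S)
    (F : FusionSystem S) (hF : F.IsSaturated p) (n : ℕ)
    (hcl : Subgroup.lowerCentralSeries S (n * (p - 1) + 1) = ⊥) (hcore : F.core = ⊥) :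
    Monoid.exponent ↥S ∣ p ^ (n ^ 2 * (p - 1) + n) := by
  have hW := powerClosure_center_isNormal p hS F hF n hcl _ _ rfl rfl
  have hle : powerClosure p n (S ⊓ Subgroup.centralizer (S : Set Ω)) ≤ F.core := le_sSup hW
  rw [hcore] at hle
  have hZ : ∀ z ∈ Subgroup.center S, z ^ (p ^ n) = 1 := by
    intro z hz
    have h1 : (z : Ω) ∈ S ⊓ Subgroup.centralizer (S : Set Ω) := by
      refine ⟨z.2, ?_⟩
      show (z : Ω) ∈ Subgroup.centralizer (S : Set Ω)
      rw [Subgroup.mem_centralizer_iff]
      intro s hs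
      have h2 := Subgroup.mem_center_iff.1 hz ⟨s, hs⟩
      exact congrArg Subtype.val h2
    have h2 := hle (pow_mem_powerClosure p n h1)
    rw [Subgroup.mem_bot] at h2
    exact Subtype.ext h2
  have htop : Subgroup.upperCentralSeries S (n * (p - 1) + 1) = ⊤ := by
    rw [← Subgroup.lowerCentralSeries_eq_bot_iff_upperCentralSeries_eq_top]
    have h1 := Subgroup.top_subtype_lowerCentralSeries S (n * (p - 1) + 1)
    rw [hcl] at h1
    exact (Subgroup.map_eq_bot_iff_of_injective _ (Subgroup.subtype_injective S)).1 h1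
  apply Monoid.exponent_dvd_of_forall_pow_eq_one
  intro x
  have h1 := pow_eq_one_of_mem_upperCentralSeries (p ^ n) hZ (n * (p - 1) + 1) x
    (htop ▸ Subgroup.mem_top x)
  rw [← pow_mul] at h1
  have e : n * (n * (p - 1) + 1) = n ^ 2 * (p - 1) + n := by ring
  rw [e] at h1
  exact h1

end Cfsg.Agent.Lib.Helper87
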